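-- S4025 team project (helper13): exact statements of the pieces (as `def XStmt : Prop`).
-- Setting: a finite group `N` with a normal elementary abelian Sylow `p`-subgroup `Q` of order `p ^ n`,
-- `N` transitive by conjugation on the subgroups of `Q` of each order.
import Mathlib
import Cfsg.Prelude.Def_Transfer
import Cfsg.Prelude.Def_CaseTheorems
import Cfsg.Prelude.Def_Perm

set_option autoImplicit false

namespace Cfsg.Agent.H13.Sa

open Cfsg

universe u v

/-- FUS (Burnside): with an abelian Sylow `p`-subgroup `P`, subgroups of `P` conjugate in `G`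
are conjugate in `N_G(P)`; here the hypothesis `hC` makes all subgroups of equal order conjugate. -/
def FusStmt : Prop :=
  ∀ {G : Type u} [Group G] [Finite G] {p : ℕ} [Fact p.Prime]
    (_hC : ∀ H K : Subgroup G, IsPGroup p H → IsPGroup p K → Nat.card H = Nat.card K →
      ∃ g : G, K = H.map (MulAut.conj g).toMonoidHom)
    (P : Sylow p G) (_hab : ∀ a ∈ (P : Subgroup G), ∀ b ∈ (P : Subgroup G), a * b = b * a)
    (A B : Subgroup G), A ≤ (P : Subgroup G) → B ≤ (P : Subgroup G) → Nat.card A = Nat.card B →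
    ∃ g ∈ Subgroup.normalizer ((P : Subgroup G) : Set G), B = A.map (MulAut.conj g).toMonoidHom

/-- COMPL: a normal Sylow `p`-subgroup `Q` has a complement `H`, and the core of `H` is `O_{p'}(N)`. -/
def ComplStmt : Prop :=
  ∀ {N : Type u} [Group N] [Finite N] {p : ℕ} [Fact p.Prime] (Q : Subgroup N) [Q.Normal]
    (_hQ : IsPGroup p Q) (_hidx : ¬ p ∣ Q.index),
    ∃ H : Subgroup N, Subgroup.IsComplement' Q H ∧ H.normalCore = pPrimeCore p N

/-- IDX: for a normal abelian Sylow `p`-subgroup `Q`, with `C = C_N(Q)` (the kernel of the conjugation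
action on `Q`) and `K = O_{p'}(N)`: `K ≤ C` and `|N : K| = |Q| * |N : C|` (as `C = Q × K`). -/
def IdxStmt : Prop :=
  ∀ {N : Type u} [Group N] [Finite N] {p : ℕ} [Fact p.Prime] (Q : Subgroup N) [Q.Normal]
    (_hQ : IsPGroup p Q) (_hidx : ¬ p ∣ Q.index) (_hab : ∀ a ∈ Q, ∀ b ∈ Q, a * b = b * a),
    pPrimeCore p N ≤ (MulAut.conjNormal : N →* MulAut Q).ker ∧
    (pPrimeCore p N).index = Nat.card Q * (MulAut.conjNormal : N →* MulAut Q).ker.index

/-- HUPPROJ: Huppert's theorem (S3360) for a solvable group acting linearly (not nec. faithfully)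
and transitively on the points (1-spaces) of `V`. -/
def HupProjStmt : Prop :=
  ∀ (q : ℕ) [Fact q.Prime] {V : Type u} [AddCommGroup V] [Module (ZMod q) V] [Finite V] [Nontrivial V]
    {G : Type v} [Group G] [Finite G] (_hsol : Group.IsSolvable G)
    (ρ : G →* (V ≃ₗ[ZMod q] V))
    (_htrans : ∀ v w : V, v ≠ 0 → w ≠ 0 → ∃ g : G, ∃ c : ZMod q, c ≠ 0 ∧ ρ g v = c • w),
    (∃ (F : Type) (_ : Field F) (_ : Fintype F) (e : V ≃+ F),
        ∀ g : G, ∃ (a : F) (σ : F ≃+* F), ∀ v : V, e (ρ g v) = a * σ (e v)) ∨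
    Nat.card V ∈ ({9, 25, 49, 121, 529, 81} : Set ℕ)

/-- FIELD: in the setting, `Q` is the additive group of a finite field `F` on which every element of
`N` acts (by conjugation) as `x ↦ a * σ x`; or `|Q| = 81`. -/
def FieldStmt : Prop :=
  ∀ {N : Type u} [Group N] [Finite N] {p : ℕ} [Fact p.Prime] (Q : Subgroup N) [Q.Normal] (n : ℕ)
    (_hn : 3 ≤ n) (_hab : ∀ a ∈ Q, ∀ b ∈ Q, a * b = b * a) (_hexp : ∀ a ∈ Q, a ^ p = 1)
    (_hcard : Nat.card Q = p ^ n)
    (K : Subgroup N) [K.Normal] (_hK : K ≤ (MulAut.conjNormal : N →* MulAut Q).ker)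
    (_hsol : Group.IsSolvable (N ⧸ K))
    (_htr : ∀ A B : Subgroup N, A ≤ Q → B ≤ Q → Nat.card A = p → Nat.card B = p →
      ∃ g : N, B = A.map (MulAut.conj g).toMonoidHom),
    (∃ (F : Type) (_ : Field F) (_ : Fintype F) (e : Additive ↥Q ≃+ F),
        ∀ g : N, ∃ (a : F) (σ : F ≃+* F), ∀ q : Q,
          e (Additive.ofMul (MulAut.conjNormal g q)) = a * σ (e (Additive.ofMul q))) ∨
    Nat.card Q = 81

/-- NO65: a finite solvable group acting faithfully on a group of order 81 has order prime to 65. -/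
def No65Stmt : Prop :=
  ∀ {Y : Type u} [Group Y] [Finite Y] (_hsol : Group.IsSolvable Y) {V : Type v} [Group V]
    (_hV : Nat.card V = 81) (φ : Y →* MulAut V) (_hφ : Function.Injective φ),
    ¬ (65 ∣ Nat.card Y)

/-- COUNT1: the number of subgroups of order `p` of an elementary abelian group of order `p ^ n`. -/
def Count1Stmt : Prop :=
  ∀ {N : Type u} [Group N] (Q : Subgroup N) [Finite Q] (p n : ℕ) [Fact p.Prime]
    (_hab : ∀ a ∈ Q, ∀ b ∈ Q, a * b = b * a) (_hexp : ∀ a ∈ Q, a ^ p = 1)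
    (_hcard : Nat.card Q = p ^ n),
    Nat.card {A : Subgroup N // A ≤ Q ∧ Nat.card A = p} * (p - 1) = p ^ n - 1

/-- COUNT2: the number of subgroups of order `p ^ 2` of an elementary abelian group of order `p ^ n`. -/
def Count2Stmt : Prop :=
  ∀ {N : Type u} [Group N] (Q : Subgroup N) [Finite Q] (p n : ℕ) [Fact p.Prime]
    (_hab : ∀ a ∈ Q, ∀ b ∈ Q, a * b = b * a) (_hexp : ∀ a ∈ Q, a ^ p = 1)
    (_hcard : Nat.card Q = p ^ n),
    Nat.card {A : Subgroup N // A ≤ Q ∧ Nat.card A = p ^ 2} * ((p ^ 2 - 1) * (p ^ 2 - p)) =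
      (p ^ n - 1) * (p ^ n - p)

/-- ORB: if `N` is transitive on the subgroups of `Q` of order `c` and the normal subgroup `M`
normalizes each subgroup of `Q`, then the number of subgroups of `Q` of order `c` divides `|N : M|`. -/
def OrbStmt : Prop :=
  ∀ {N : Type u} [Group N] [Finite N] (Q M : Subgroup N) [Q.Normal] [M.Normal] (c : ℕ)
    (_htr : ∀ A B : Subgroup N, A ≤ Q → B ≤ Q → Nat.card A = c → Nat.card B = c →
      ∃ g : N, B = A.map (MulAut.conj g).toMonoidHom)
    (_hM : ∀ g ∈ M, ∀ A : Subgroup N, A ≤ Q → A.map (MulAut.conj g).toMonoidHom = A)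
    (_hne : ∃ A : Subgroup N, A ≤ Q ∧ Nat.card A = c),
    Nat.card {A : Subgroup N // A ≤ Q ∧ Nat.card A = c} ∣ M.index

/-- NUM: the arithmetic: `m` points, `L` lines, both dividing `t ≤ n * m`. -/
def NumStmt : Prop :=
  ∀ (p n t m L : ℕ), p.Prime → 3 ≤ n → m * (p - 1) = p ^ n - 1 →
    L * ((p ^ 2 - 1) * (p ^ 2 - p)) = (p ^ n - 1) * (p ^ n - p) → m ∣ t → L ∣ t → 0 < t →
    t * (p - 1) ≤ n * (p ^ n - 1) → n = 3 ∨ (n = 5 ∧ p = 2)

/-- AUT: a field with `p ^ n` elements has exactly `n` automorphisms. -/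
def AutStmt : Prop :=
  ∀ {F : Type} [Field F] [Fintype F] (p n : ℕ) [Fact p.Prime], Nat.card F = p ^ n →
    Nat.card (F ≃+* F) = n

/-- BOUND: if `N` acts on `Q ≅ (F, +)` by maps `x ↦ a * σ x`, the elements acting as scalars of the
prime field form a normal subgroup `M` (normalizing every subgroup of `Q`) of index at most
`n * (p ^ n - 1) / (p - 1)`. -/
def BoundStmt : Prop :=
  ∀ {N : Type u} [Group N] [Finite N] {p : ℕ} [Fact p.Prime] (Q : Subgroup N) [Q.Normal] (n : ℕ)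
    {F : Type} [Field F] [Fintype F] (_hF : Nat.card F = p ^ n) (e : Additive ↥Q ≃+ F)
    (_hsemi : ∀ g : N, ∃ (a : F) (σ : F ≃+* F), ∀ q : Q,
      e (Additive.ofMul (MulAut.conjNormal g q)) = a * σ (e (Additive.ofMul q))),
    ∃ M : Subgroup N, M.Normal ∧
      (∀ g ∈ M, ∀ A : Subgroup N, A ≤ Q → A.map (MulAut.conj g).toMonoidHom = A) ∧
      M.index * (p - 1) ≤ n * (p ^ n - 1)

/-- EMB: if `N = Q ⋊ H` acts on `Q ≅ (F, +)` by maps `x ↦ a * σ x`, the action of `N` on the cosets of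
`H` (identified with `F`) is by semi-affine maps. -/
def EmbStmt : Prop :=
  ∀ {N : Type u} [Group N] [Finite N] (Q H : Subgroup N) [Q.Normal]
    (_hc : Subgroup.IsComplement' Q H) {F : Type} [Field F] [Fintype F] (e : Additive ↥Q ≃+ F)
    (_hsemi : ∀ g : N, ∃ (a : F) (σ : F ≃+* F), ∀ q : Q,
      e (Additive.ofMul (MulAut.conjNormal g q)) = a * σ (e (Additive.ofMul q))),
    ∃ f : N →* Equiv.Perm F, f.ker = H.normalCore ∧ ∀ g : N, f g ∈ semiaffineGroup F

/-- TRANS: transport of the (semi)affine group along `F ≃+* GaloisField p n`. -/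
def TransStmt : Prop :=
  ∀ {F : Type} [Field F] [Fintype F] (p n : ℕ) [Fact p.Prime], Nat.card F = p ^ n →
    Nonempty (semiaffineGroup F ≃* semiaffineGroup (GaloisField p n)) ∧
    Nonempty (affineGroup F ≃* affineGroup (GaloisField p n))

/-- P2: a subgroup of `AΓL(1,8)` of order divisible by 56 is `AΓL(1,8)` or `AGL(1,8)`. -/
def P2Stmt : Prop :=
  ∀ {F : Type} [Field F] [Fintype F] (_hF : Nat.card F = 8) {X : Type u} [Group X] [Finite X]
    (f : X →* semiaffineGroup F) (_hf : Function.Injective f) (_h : 56 ∣ Nat.card X),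
    Nonempty (X ≃* semiaffineGroup F) ∨ Nonempty (X ≃* affineGroup F)

/-- P5: a subgroup of `AΓL(1,32)` of order divisible by `32 * 155` is `AΓL(1,32)`. -/
def P5Stmt : Prop :=
  ∀ {F : Type} [Field F] [Fintype F] (_hF : Nat.card F = 32) {X : Type u} [Group X] [Finite X]
    (f : X →* semiaffineGroup F) (_hf : Function.Injective f) (_h : 4960 ∣ Nat.card X),
    Nonempty (X ≃* semiaffineGroup F)

/-- MAIN: the theorem in the abstract setting. -/
def MainStmt : Prop :=
  ∀ {N : Type u} [Group N] [Finite N] {p : ℕ} [Fact p.Prime] (Q : Subgroup N) [Q.Normal] (n : ℕ)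
    (_hn : 3 ≤ n) (_hab : ∀ a ∈ Q, ∀ b ∈ Q, a * b = b * a) (_hexp : ∀ a ∈ Q, a ^ p = 1)
    (_hcard : Nat.card Q = p ^ n) (_hidx : ¬ p ∣ Q.index)
    (_hsol : Group.IsSolvable (N ⧸ pPrimeCore p N))
    (_htr : ∀ A B : Subgroup N, A ≤ Q → B ≤ Q → Nat.card A = Nat.card B →
      ∃ g : N, B = A.map (MulAut.conj g).toMonoidHom),
    (n = 3 ∧ (∃ f : N ⧸ pPrimeCore p N →* semiaffineGroup (GaloisField p 3), Function.Injective f) ∧
      (p = 2 → Nonempty (N ⧸ pPrimeCore p N ≃* semiaffineGroup (GaloisField 2 3)) ∨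
               Nonempty (N ⧸ pPrimeCore p N ≃* affineGroup (GaloisField 2 3)))) ∨
    (n = 5 ∧ p = 2 ∧ Nonempty (N ⧸ pPrimeCore p N ≃* semiaffineGroup (GaloisField 2 5)))

end Cfsg.Agent.H13.Sa
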