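import Mathlib
import Cfsg.Prelude.Def_Transfer
import Cfsg.Prelude.Def_Solvable
import Cfsg.Agent.H13.PCore
import Cfsg.Agent.H1.HallHigman
import Cfsg.Agent.H1.FPF
import Cfsg.Agent.H54.CharP2
import Cfsg.Agent.H59.UniqueOrderP
import Cfsg.Agent.H12.Index
import Cfsg.Agent.H1.MinNormal

/-!
# Solvable groups with `O(H) = 1` whose involution centralizers are `2`-nilpotent

Elements of odd order commute with no involution (Thompson `A × B`), hence act
fixed-point-freely on `O₂(H)`.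
-/

set_option autoImplicit false
set_option linter.style.haveILetI false

namespace Cfsg.Agent.H13

open Cfsg

/-- An element of odd order lies in every normal subgroup of `2`-power index. -/
theorem mem_of_odd_orderOf_of_index {C : Type*} [Group C] [Finite C] (N : Subgroup C) [N.Normal]
    {k : ℕ} (hN : N.index = 2 ^ k) (x : C) (hx : Odd (orderOf x)) : x ∈ N := by
  rw [← QuotientGroup.eq_one_iff]
  have h1 : orderOf (QuotientGroup.mk' N x) ∣ orderOf x := orderOf_map_dvd _ x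
  have h2 : orderOf (QuotientGroup.mk' N x) ∣ 2 ^ k := by
    rw [← hN, Subgroup.index_eq_card]
    exact orderOf_dvd_natCard _
  have h3 : orderOf (QuotientGroup.mk' N x) = 1 := by
    have hcop : Nat.Coprime (orderOf x) (2 ^ k) :=
      Nat.Coprime.pow_right k (Nat.Coprime.symm (Nat.coprime_two_left.mpr hx))
    exact Nat.eq_one_of_dvd_coprimes hcop h1 h2
  exact orderOf_eq_one_iff.mp h3

/-- An element of odd order in a `2`-group is trivial. -/
theorem eq_one_of_odd_of_isPGroup_two {C : Type*} [Group C] {Z : Subgroup C} (hZ : IsPGroup 2 Z)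
    {c : C} (hc : c ∈ Z) (hodd : Odd (orderOf c)) : c = 1 := by
  obtain ⟨j, hj⟩ := hZ ⟨c, hc⟩
  have hj' : c ^ 2 ^ j = 1 := by
    have := congrArg Subtype.val hj
    simpa using this
  have h1 : orderOf c ∣ 2 ^ j := orderOf_dvd_of_pow_eq_one hj'
  have hcop : Nat.Coprime (orderOf c) (2 ^ j) :=
    Nat.Coprime.pow_right j (Nat.Coprime.symm (Nat.coprime_two_left.mpr hodd))
  exact orderOf_eq_one_iff.mp (Nat.eq_one_of_dvd_coprimes hcop dvd_rfl h1)

/-- In a finite solvable group with `O(H) = 1` in which involution centralizers have normal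
`2`-complements, no nontrivial element of odd order commutes with an involution. -/
theorem odd_not_commute_involution {H : Type*} [Group H] [Finite H] [Group.IsSolvable H]
    (hO : Cfsg.pPrimeCore 2 H = ⊥)
    (hI : ∀ t : H, orderOf t = 2 →
      Cfsg.HasNormalPComplement 2 ↥(Subgroup.centralizer ({t} : Set H)))
    (x t : H) (hx1 : x ≠ 1) (hx : Odd (orderOf x)) (ht : orderOf t = 2) : x * t ≠ t * x := by
  intro hcomm
  haveI : Fact (Nat.Prime 2) := ⟨Nat.prime_two⟩
  set Y := Cfsg.pCore 2 H with hY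
  haveI hYn : Y.Normal := pCore_normal 2 H
  have hYp : IsPGroup 2 Y := pCore_isPGroup 2 H
  have hC : Subgroup.centralizer (Y : Set H) ≤ Y := Cfsg.Agent.H1.centralizer_pCore_le 2 hO
  obtain ⟨P, N, hNn, hcompl⟩ := hI t ht
  haveI := hNn
  have hxC : x ∈ Subgroup.centralizer ({t} : Set H) := by
    rw [Subgroup.mem_centralizer_singleton_iff]; exact hcomm
  -- `N` has `2`-power index and odd order
  have hidx : N.index = Nat.card (P : Subgroup (Subgroup.centralizer ({t} : Set H))) :=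
    Subgroup.IsComplement'.index_eq_card (Subgroup.IsComplement'.symm hcompl)
  obtain ⟨k, hk⟩ := IsPGroup.exists_card_eq P.2
  have hxN : (⟨x, hxC⟩ : Subgroup.centralizer ({t} : Set H)) ∈ N := by
    apply mem_of_odd_orderOf_of_index N (hidx.trans hk)
    rw [← Subgroup.orderOf_coe]; exact hx
  have hNodd : Odd (Nat.card N) := by
    have h1 : (P : Subgroup (Subgroup.centralizer ({t} : Set H))).index = Nat.card N :=
      Subgroup.IsComplement'.index_eq_card hcompl
    rw [← h1, ← Nat.not_even_iff_odd, even_iff_two_dvd]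
    exact P.not_dvd_index
  -- `x` centralizes `C_Y(t)`
  have hcent : ∀ y ∈ Y, (∀ b ∈ Subgroup.zpowers t, b * y = y * b) → x * y = y * x := by
    intro y hy hb
    have hyC : y ∈ Subgroup.centralizer ({t} : Set H) := by
      rw [Subgroup.mem_centralizer_singleton_iff]
      exact (hb t (Subgroup.mem_zpowers t)).symm
    set xc : Subgroup.centralizer ({t} : Set H) := ⟨x, hxC⟩ with hxc
    set yc : Subgroup.centralizer ({t} : Set H) := ⟨y, hyC⟩ with hyc
    have hZn : (Y.subgroupOf (Subgroup.centralizer ({t} : Set H))).Normal :=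
      Subgroup.normal_subgroupOf
    have hZp : IsPGroup 2 (Y.subgroupOf (Subgroup.centralizer ({t} : Set H))) :=
      hYp.comap_subtype
    have hyZ : yc ∈ Y.subgroupOf (Subgroup.centralizer ({t} : Set H)) := by
      rw [Subgroup.mem_subgroupOf]; exact hy
    have hc1 : xc * yc * xc⁻¹ * yc⁻¹ ∈ N := by
      have : yc * xc⁻¹ * yc⁻¹ ∈ N := hNn.conj_mem _ (N.inv_mem hxN) yc
      have h2 := N.mul_mem hxN this
      convert h2 using 1
      group
    have hc2 : xc * yc * xc⁻¹ * yc⁻¹ ∈ Y.subgroupOf (Subgroup.centralizer ({t} : Set H)) :=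
      Subgroup.mul_mem _ (hZn.conj_mem _ hyZ xc) (Subgroup.inv_mem _ hyZ)
    have hodd : Odd (orderOf (xc * yc * xc⁻¹ * yc⁻¹)) := by
      have hdvd : orderOf (xc * yc * xc⁻¹ * yc⁻¹) ∣ Nat.card N := by
        have := orderOf_dvd_natCard (⟨_, hc1⟩ : N)
        rwa [← Subgroup.orderOf_coe] at this
      exact Odd.of_dvd_nat hNodd hdvd
    have h1 := eq_one_of_odd_of_isPGroup_two hZp hc2 hodd
    have h2 : x * y * x⁻¹ * y⁻¹ = 1 := by
      have := congrArg Subtype.val h1
      simpa [hxc, hyc] using this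
    calc x * y = (x * y * x⁻¹ * y⁻¹) * (y * x) := by group
      _ = y * x := by rw [h2, one_mul]
  have hall := Cfsg.Agent.H54.thompson_AxB_elt (p := 2) x (Subgroup.zpowers t) Y
    (by
      apply IsPGroup.of_card (n := 1)
      rw [Nat.card_zpowers, ht, pow_one])
    (Nat.Coprime.symm (Nat.coprime_two_left.mpr hx))
    (by
      intro b hb
      obtain ⟨j, rfl⟩ := Subgroup.mem_zpowers_iff.mp hb
      exact (Commute.zpow_right (show Commute x t from hcomm) j).eq)
    hYp
    (by rw [Subgroup.normalizer_eq_top]; trivial)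
    (by rw [Subgroup.normalizer_eq_top]; exact le_top)
    hcent
  have hxY : x ∈ Y := by
    apply hC
    rw [Subgroup.mem_centralizer_iff]
    intro y hy
    exact (hall y hy).symm
  exact hx1 (eq_one_of_odd_of_isPGroup_two hYp hxY hx)

/-- No nontrivial element of odd order commutes with a nontrivial `2`-element. -/
theorem odd_not_commute_two_elt {H : Type*} [Group H] [Finite H] [Group.IsSolvable H]
    (hO : Cfsg.pPrimeCore 2 H = ⊥)
    (hI : ∀ t : H, orderOf t = 2 →
      Cfsg.HasNormalPComplement 2 ↥(Subgroup.centralizer ({t} : Set H)))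
    (x u : H) (hx1 : x ≠ 1) (hx : Odd (orderOf x)) (hu1 : u ≠ 1) (j : ℕ) (hu : u ^ 2 ^ j = 1) :
    x * u ≠ u * x := by
  intro hcomm
  obtain ⟨i, -, hi⟩ := (Nat.dvd_prime_pow Nat.prime_two).mp (orderOf_dvd_of_pow_eq_one hu)
  have hi0 : i ≠ 0 := by
    rintro rfl
    rw [pow_zero, orderOf_eq_one_iff] at hi
    exact hu1 hi
  obtain ⟨i', rfl⟩ := Nat.exists_eq_succ_of_ne_zero hi0
  have ht : orderOf (u ^ 2 ^ i') = 2 := by
    rw [orderOf_pow_of_dvd (pow_ne_zero _ two_ne_zero) (by rw [hi]; exact pow_dvd_pow 2 (Nat.le_succ i')),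
      hi, pow_succ, Nat.mul_div_cancel_left _ (pow_pos two_pos i')]
  exact odd_not_commute_involution hO hI x (u ^ 2 ^ i') hx1 hx ht
    (Commute.pow_right (show Commute x u from hcomm) _).eq

/-- Centralizers of nontrivial elements of odd order have odd order. -/
theorem odd_card_centralizer {H : Type*} [Group H] [Finite H] [Group.IsSolvable H]
    (hO : Cfsg.pPrimeCore 2 H = ⊥)
    (hI : ∀ t : H, orderOf t = 2 →
      Cfsg.HasNormalPComplement 2 ↥(Subgroup.centralizer ({t} : Set H)))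
    (g : H) (hg1 : g ≠ 1) (hg : Odd (orderOf g)) :
    Odd (Nat.card (Subgroup.centralizer ({g} : Set H))) := by
  by_contra hcon
  rw [Nat.not_odd_iff_even, even_iff_two_dvd] at hcon
  haveI : Fact (Nat.Prime 2) := ⟨Nat.prime_two⟩
  obtain ⟨t, ht⟩ := exists_prime_orderOf_dvd_card' 2 hcon
  have ht' : orderOf (t : H) = 2 := by rw [Subgroup.orderOf_coe]; exact ht
  have hc := Subgroup.mem_centralizer_singleton_iff.mp t.2
  exact odd_not_commute_involution hO hI g t hg1 hg ht' hc.symm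

/-- A group acting fixed-point-freely on a nontrivial abelian `2`-group contains no
`C_p × C_p` for odd `p`. -/
theorem false_of_fpf_pair {G : Type*} [Group G] (A V : Subgroup G)
    (hVc : ∀ v ∈ V, ∀ w ∈ V, v * w = w * v) (hV2 : IsPGroup 2 V) (hV : V ≠ ⊥)
    (hAV : A ≤ Subgroup.normalizer (V : Set G))
    (hfpf : ∀ a ∈ A, a ≠ 1 → ∀ v ∈ V, a * v = v * a → v = 1)
    (p : ℕ) (hp : p.Prime) (hp2 : p ≠ 2) (x y : G) (hx : x ∈ A) (hy : y ∈ A)
    (hxy : x * y = y * x) (hx1 : x ≠ 1) (hxp : x ^ p = 1) (hyp : y ^ p = 1)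
    (hyx : y ∉ Subgroup.zpowers x) : False := by
  let _ : CommGroup V :=
    { (inferInstance : Group V) with mul_comm := fun a b => Subtype.ext (hVc a a.2 b b.2) }
  let _ : MulDistribMulAction A V := Cfsg.Agent.H1.FPF.conjAction A V hAV
  have hfpf' : ∀ a : A, a ≠ 1 → ∀ v : V, a • v = v → v = 1 := by
    intro a ha v hv
    have h1 : (a : G) * v * (a : G)⁻¹ = v := congrArg Subtype.val hv
    have h3 : (a : G) * v = v * a := by
      calc (a : G) * v = ((a : G) * v * (a : G)⁻¹) * a := by group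
        _ = v * a := by rw [h1]
    exact Subtype.ext (hfpf a a.2 (fun h => ha (Subtype.ext h)) v v.2 h3)
  have hpow := Cfsg.Agent.H1.FPF.pow_eq_one_of_pair hfpf' p hp (⟨x, hx⟩ : A) ⟨y, hy⟩
    (Subtype.ext hxy) (fun h => hx1 (congrArg Subtype.val h)) (Subtype.ext (by simpa using hxp))
    (Subtype.ext (by simpa using hyp))
    (by
      intro hmem
      apply hyx
      obtain ⟨k, hk⟩ := Subgroup.mem_zpowers_iff.mp hmem
      exact Subgroup.mem_zpowers_iff.mpr ⟨k, by simpa using congrArg Subtype.val hk⟩)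
  obtain ⟨v, hvV, hv1⟩ : ∃ v : G, v ∈ V ∧ v ≠ 1 := by
    obtain ⟨v, hv⟩ := (Subgroup.ne_bot_iff_exists_ne_one).mp hV
    exact ⟨(v : G), v.2, fun h => hv (Subtype.ext h)⟩
  have h1 : v ^ p = 1 := by
    have := congrArg Subtype.val (hpow ⟨v, hvV⟩)
    simpa using this
  obtain ⟨j, hj⟩ := hV2 ⟨v, hvV⟩
  have h2 : v ^ 2 ^ j = 1 := by
    have := congrArg Subtype.val hj
    simpa using this
  have h3 : orderOf v ∣ p := orderOf_dvd_of_pow_eq_one h1
  have h4 : orderOf v ∣ 2 ^ j := orderOf_dvd_of_pow_eq_one h2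
  have hcop : Nat.Coprime p (2 ^ j) :=
    Nat.Coprime.pow_right j ((Nat.coprime_primes hp Nat.prime_two).mpr hp2)
  exact hv1 (orderOf_eq_one_iff.mp (Nat.eq_one_of_dvd_coprimes hcop h3 h4))

universe u

/-- Sylow `p`-subgroups (`p` odd) of a group acting fixed-point-freely on a nontrivial abelian
`2`-group are cyclic. -/
theorem isCyclic_sylow_of_fpf {G : Type u} [Group G] [Finite G] (X V : Subgroup G)
    (hVc : ∀ v ∈ V, ∀ w ∈ V, v * w = w * v) (hV2 : IsPGroup 2 V) (hV : V ≠ ⊥)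
    (hXV : X ≤ Subgroup.normalizer (V : Set G))
    (hfpf : ∀ a ∈ X, a ≠ 1 → ∀ v ∈ V, a * v = v * a → v = 1)
    (p : ℕ) [hp : Fact p.Prime] (hp2 : p ≠ 2) (P : Sylow p ↥X) :
    IsCyclic ↥(P : Subgroup ↥X) := by
  apply Cfsg.Agent.H59.isCyclic_of_unique_odd p hp2 (Nat.card (P : Subgroup ↥X))
    ↥(P : Subgroup ↥X) rfl P.2
  -- all subgroups of order `p` equal `⟨z⟩` for a central `z` of order `p`
  have key : ∀ H₁ : Subgroup ↥(P : Subgroup ↥X), Nat.card H₁ = p →
      ∃ z : ↥(P : Subgroup ↥X), orderOf z = p ∧ z ∈ Subgroup.center ↥(P : Subgroup ↥X) ∧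
        ∀ K₁ : Subgroup ↥(P : Subgroup ↥X), Nat.card K₁ = p → K₁ = Subgroup.zpowers z := by
    intro H₁ hH₁
    have hnt : Nontrivial ↥(P : Subgroup ↥X) := by
      have h1 : 1 < Nat.card H₁ := by rw [hH₁]; exact hp.out.one_lt
      have h2 : Nat.card H₁ ≤ Nat.card ↥(P : Subgroup ↥X) := Subgroup.card_le_card_group H₁
      exact Finite.one_lt_card_iff_nontrivial.mp (lt_of_lt_of_le h1 h2)
    have hcn : Nontrivial (Subgroup.center ↥(P : Subgroup ↥X)) := P.2.center_nontrivial
    have hcp : IsPGroup p (Subgroup.center ↥(P : Subgroup ↥X)) := P.2.to_subgroup _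
    obtain ⟨n, hn0, hn⟩ := (hcp.nontrivial_iff_card).mp hcn
    have hdvd : p ∣ Nat.card (Subgroup.center ↥(P : Subgroup ↥X)) := by
      rw [hn]; exact dvd_pow_self p hn0.ne'
    obtain ⟨z', hz'⟩ := exists_prime_orderOf_dvd_card' p hdvd
    refine ⟨(z' : ↥(P : Subgroup ↥X)), by rw [Subgroup.orderOf_coe]; exact hz', z'.2, ?_⟩
    set z : ↥(P : Subgroup ↥X) := (z' : ↥(P : Subgroup ↥X)) with hz
    have hzo : orderOf z = p := by rw [hz, Subgroup.orderOf_coe]; exact hz'
    have hz1 : z ≠ 1 := by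
      intro h
      rw [h, orderOf_one] at hzo
      exact hp.out.one_lt.ne hzo
    have hmem : ∀ a : ↥(P : Subgroup ↥X), a ^ p = 1 → a ∈ Subgroup.zpowers z := by
      intro a ha
      by_contra hnot
      apply false_of_fpf_pair X V hVc hV2 hV hXV hfpf p hp.out hp2
        (((z : ↥(P : Subgroup ↥X)) : ↥X) : G) (((a : ↥(P : Subgroup ↥X)) : ↥X) : G)
        (z : ↥X).2 (a : ↥X).2
      · have h1 := Subgroup.mem_center_iff.mp z'.2 a
        have h2 : ((a * z : ↥(P : Subgroup ↥X)) : ↥X) = ((z * a : ↥(P : Subgroup ↥X)) : ↥X) :=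
          congrArg Subtype.val h1
        have h3 := congrArg Subtype.val h2
        simp only [Subgroup.coe_mul] at h3
        exact h3.symm
      · intro h
        apply hz1
        exact Subtype.ext (Subtype.ext (by simpa using h))
      · have h1 : z ^ p = 1 := orderOf_dvd_iff_pow_eq_one.mp (dvd_of_eq hzo)
        have h2 := congrArg (fun t : ↥(P : Subgroup ↥X) => ((t : ↥X) : G)) h1
        simpa using h2
      · have h2 := congrArg (fun t : ↥(P : Subgroup ↥X) => ((t : ↥X) : G)) ha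
        simpa using h2
      · intro hmem
        apply hnot
        obtain ⟨k, hk⟩ := Subgroup.mem_zpowers_iff.mp hmem
        refine Subgroup.mem_zpowers_iff.mpr ⟨k, ?_⟩
        apply Subtype.ext
        apply Subtype.ext
        simpa using hk
    intro K₁ hK₁
    apply Subgroup.eq_of_le_of_card_ge
    · intro a ha
      apply hmem
      have h1 : orderOf (⟨a, ha⟩ : K₁) ∣ p :=
        (orderOf_dvd_natCard (⟨a, ha⟩ : K₁)).trans (dvd_of_eq hK₁)
      have h2 : (⟨a, ha⟩ : K₁) ^ p = 1 := orderOf_dvd_iff_pow_eq_one.mp h1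
      have := congrArg Subtype.val h2
      simpa using this
    · rw [Nat.card_zpowers, hzo, hK₁]
  intro H₁ K₁ hH₁ hK₁
  obtain ⟨z, -, -, hz⟩ := key H₁ hH₁
  rw [hz H₁ hH₁, hz K₁ hK₁]

theorem relIndex_comap_mk_eq_card {H : Type*} [Group H] (C : Subgroup H) [C.Normal]
    (P : Subgroup (H ⧸ C)) : C.relIndex (P.comap (QuotientGroup.mk' C)) = Nat.card P := by
  have hker : (⊥ : Subgroup (H ⧸ C)).comap (QuotientGroup.mk' C) = C := by
    rw [MonoidHom.comap_bot, QuotientGroup.ker_mk']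
  have h := Subgroup.relIndex_comap (⊥ : Subgroup (H ⧸ C)) (QuotientGroup.mk' C)
    (P.comap (QuotientGroup.mk' C))
  rw [hker, Subgroup.map_comap_eq_self_of_surjective (QuotientGroup.mk'_surjective C),
    Subgroup.relIndex_bot_left] at h
  exact h

/-- A normal subgroup `D ≥ Y` with `|D : Y|` odd lies in `X ⊔ Y` when `X` has `2`-power index. -/
theorem le_sup_of_odd_relIndex {H : Type*} [Group H] [Finite H] (X Y D : Subgroup H) [D.Normal]
    (hYD : Y ≤ D) (hodd : Odd (Y.relIndex D)) (k : ℕ) (hX : X.index = 2 ^ k) : D ≤ X ⊔ Y := by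
  have hE : (X ⊓ D) ⊔ Y ≤ D := sup_le inf_le_right hYD
  have h1 : ((X ⊓ D) ⊔ Y).relIndex D ∣ Y.relIndex D := Subgroup.relIndex_dvd_of_le_left D le_sup_right
  have h2 : ((X ⊓ D) ⊔ Y).relIndex D ∣ 2 ^ k := by
    have h3 : ((X ⊓ D) ⊔ Y).relIndex D ∣ (X ⊓ D).relIndex D :=
      Subgroup.relIndex_dvd_of_le_left D le_sup_left
    rw [Subgroup.inf_relIndex_right] at h3
    rw [← hX]
    exact h3.trans (Cfsg.Agent.H12.relIndex_dvd_index_of_normal_right X D)
  have hcop : Nat.Coprime (Y.relIndex D) (2 ^ k) :=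
    Nat.Coprime.pow_right k (Nat.Coprime.symm (Nat.coprime_two_left.mpr hodd))
  have h4 : ((X ⊓ D) ⊔ Y).relIndex D = 1 := Nat.eq_one_of_dvd_coprimes hcop h1 h2
  exact (Subgroup.relIndex_eq_one.mp h4).trans (sup_le_sup_right inf_le_left Y)

/-- Structure step: a normal subgroup `D ≤ X ⊔ O₂(H)` with cyclic quotient. -/
theorem exists_normal_le_sup_cyclic {H : Type*} [Group H] [Finite H] [Group.IsSolvable H]
    (hO : Cfsg.pPrimeCore 2 H = ⊥)
    (hI : ∀ t : H, orderOf t = 2 →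
      Cfsg.HasNormalPComplement 2 ↥(Subgroup.centralizer ({t} : Set H)))
    (X : Subgroup H) (k : ℕ) (hXidx : X.index = 2 ^ k) :
    ∃ (D : Subgroup H) (_ : D.Normal), D ≤ X ⊔ Cfsg.pCore 2 H ∧ IsCyclic (H ⧸ D) := by
  classical
  haveI : Fact (Nat.Prime 2) := ⟨Nat.prime_two⟩
  set Y := Cfsg.pCore 2 H with hY
  haveI hYn : Y.Normal := pCore_normal 2 H
  have hYp : IsPGroup 2 Y := pCore_isPGroup 2 H
  have hC : Subgroup.centralizer (Y : Set H) ≤ Y := Cfsg.Agent.H1.centralizer_pCore_le 2 hO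
  by_cases hYtop : Y = ⊤
  · refine ⟨⊤, inferInstance, ?_, ?_⟩
    · rw [hYtop]; exact le_sup_right
    · haveI := QuotientGroup.subsingleton_quotient_top (G := H)
      exact isCyclic_of_subsingleton
  have hYbot : Y ≠ ⊥ := by
    intro h
    apply hYtop
    rw [eq_top_iff]
    refine le_trans ?_ hC
    rw [h]
    intro x _
    rw [Subgroup.mem_centralizer_iff]
    intro y hy
    have hy1 : y = 1 := by simpa using hy
    rw [hy1, one_mul, mul_one]
  haveI : Nontrivial (H ⧸ Y) := QuotientGroup.nontrivial_iff.mpr hYtop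
  obtain ⟨Nb, hNbn, hNb1, hmin⟩ := Cfsg.Agent.H1.exists_minimal_normal (G := H ⧸ Y)
  haveI := hNbn
  obtain ⟨hcomm, r, hr, hexp⟩ := Cfsg.Agent.H1.minimal_normal_elementary_abelian Nb hNb1 hmin
  set K := Nb.comap (QuotientGroup.mk' Y) with hK
  haveI hKn : K.Normal := hNbn.comap _
  have hmemK : ∀ a : H, a ∈ K ↔ QuotientGroup.mk' Y a ∈ Nb := fun a => Iff.rfl
  have hYK : Y ≤ K := by
    intro y hy
    rw [hmemK]
    have : (QuotientGroup.mk' Y) y = 1 := (QuotientGroup.eq_one_iff y).mpr hy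
    rw [this]; exact Nb.one_mem
  have hrel : Y.relIndex K = Nat.card Nb := relIndex_comap_mk_eq_card Y Nb
  have hNbp : IsPGroup r Nb := fun x => ⟨1, by
    rw [pow_one]; exact Subtype.ext (by simpa using hexp x x.2)⟩
  have hr2 : r ≠ 2 := by
    rintro rfl
    have hKp : IsPGroup 2 K := by
      rintro ⟨a, ha⟩
      have h2 : a ^ 2 ∈ Y := by
        rw [← QuotientGroup.eq_one_iff]
        have := hexp _ ((hmemK a).mp ha)
        simpa using this
      obtain ⟨j, hj⟩ := hYp ⟨a ^ 2, h2⟩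
      refine ⟨j + 1, Subtype.ext ?_⟩
      have hj' : (a ^ 2) ^ 2 ^ j = 1 := by simpa using congrArg Subtype.val hj
      rw [Subgroup.coe_pow, Subgroup.coe_one, pow_succ', pow_mul]
      exact hj'
    have hKY : K ≤ Y := le_pCore hKn hKp
    apply hNb1
    rw [eq_bot_iff]
    intro n hn
    obtain ⟨a, rfl⟩ := QuotientGroup.mk'_surjective Y n
    rw [Subgroup.mem_bot]
    exact (QuotientGroup.eq_one_iff a).mpr (hKY hn)
  haveI hrf : Fact r.Prime := ⟨hr⟩
  have hrodd : Odd r := hr.odd_of_ne_two hr2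
  obtain ⟨e, he⟩ := hNbp.exists_card_eq
  have he0 : e ≠ 0 := by
    rintro rfl
    rw [pow_zero] at he
    exact hNb1 (Subgroup.card_eq_one.mp he)
  have hrelodd : Odd (Y.relIndex K) := by rw [hrel, he]; exact hrodd.pow
  have hrK : r ∣ Nat.card K := by
    have h1 : r ∣ Y.relIndex K := by rw [hrel, he]; exact dvd_pow_self r he0
    exact h1.trans (Subgroup.relIndex_dvd_card Y K)
  obtain ⟨R⟩ : Nonempty (Sylow r K) := inferInstance
  have hRne : (R : Subgroup K) ≠ ⊥ := R.ne_bot_of_dvd_card hrK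
  set R₁ := (R : Subgroup K).map K.subtype with hR₁
  have hR₁p : IsPGroup r R₁ := R.2.map _
  have hR₁K : R₁ ≤ K := by
    rintro _ ⟨a, -, rfl⟩; exact a.2
  have hR₁ne : R₁ ≠ ⊥ := by
    intro h
    apply hRne
    rw [hR₁] at h
    exact (Subgroup.map_eq_bot_iff_of_injective _ (Subgroup.subtype_injective K)).mp h
  have hdisj : ∀ a ∈ R₁, a ∈ Y → a = 1 := by
    intro a ha haY
    have hd := IsPGroup.disjoint_of_ne r 2 hr2 R₁ Y hR₁p hYp
    exact Subgroup.disjoint_def.mp hd ha haY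
  have hR₁odd : ∀ a ∈ R₁, Odd (orderOf a) := by
    intro a ha
    obtain ⟨j, hj⟩ := hR₁p ⟨a, ha⟩
    have h1 : a ^ r ^ j = 1 := by simpa using congrArg Subtype.val hj
    exact Odd.of_dvd_nat hrodd.pow (orderOf_dvd_of_pow_eq_one h1)
  have hR₁c : ∀ a ∈ R₁, ∀ b ∈ R₁, a * b = b * a := by
    intro a ha b hb
    have hm : a * b * a⁻¹ * b⁻¹ ∈ Y := by
      rw [← QuotientGroup.eq_one_iff]
      have hab : (⟨QuotientGroup.mk' Y a, (hmemK a).mp (hR₁K ha)⟩ : Nb) *
          ⟨QuotientGroup.mk' Y b, (hmemK b).mp (hR₁K hb)⟩ =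
          ⟨QuotientGroup.mk' Y b, (hmemK b).mp (hR₁K hb)⟩ *
          ⟨QuotientGroup.mk' Y a, (hmemK a).mp (hR₁K ha)⟩ := mul_comm' _ _
      have hab' : QuotientGroup.mk' Y a * QuotientGroup.mk' Y b =
          QuotientGroup.mk' Y b * QuotientGroup.mk' Y a := congrArg Subtype.val hab
      have h3 : QuotientGroup.mk' Y (a * b * a⁻¹ * b⁻¹) = 1 := by
        rw [map_mul, map_mul, map_mul, map_inv, map_inv, hab']; group
      exact h3
    have h1 := hdisj _
      (R₁.mul_mem (R₁.mul_mem (R₁.mul_mem ha hb) (R₁.inv_mem ha)) (R₁.inv_mem hb)) hm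
    calc a * b = (a * b * a⁻¹ * b⁻¹) * (b * a) := by group
      _ = b * a := by rw [h1, one_mul]
  have hR₁exp : ∀ a ∈ R₁, a ^ r = 1 := by
    intro a ha
    apply hdisj _ (R₁.pow_mem ha r)
    rw [← QuotientGroup.eq_one_iff]
    have := hexp _ ((hmemK a).mp (hR₁K ha))
    simpa using this
  -- the abelian normal `2`-subgroup `V = Z(Y)`
  set V := Y ⊓ Subgroup.centralizer (Y : Set H) with hV
  have hVne : V ≠ ⊥ := by
    haveI : Nontrivial Y := (Subgroup.nontrivial_iff_ne_bot Y).mpr hYbot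
    haveI := hYp.center_nontrivial
    obtain ⟨z, hz⟩ := exists_ne (1 : Subgroup.center Y)
    intro h
    apply hz
    have hzV : ((z : Y) : H) ∈ V := by
      refine Subgroup.mem_inf.mpr ⟨(z : Y).2, ?_⟩
      rw [Subgroup.mem_centralizer_iff]
      intro y hy
      have := Subgroup.mem_center_iff.mp z.2 ⟨y, hy⟩
      exact congrArg Subtype.val this
    rw [h, Subgroup.mem_bot] at hzV
    exact Subtype.ext (Subtype.ext hzV)
  have hVc : ∀ v ∈ V, ∀ w ∈ V, v * w = w * v := by
    intro v hv w hw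
    exact Subgroup.mem_centralizer_iff.mp hw.2 v hv.1
  have hV2 : IsPGroup 2 V := hYp.to_le inf_le_left
  haveI hVn : V.Normal := inferInstance
  have hfpf : ∀ a : H, a ≠ 1 → Odd (orderOf a) → ∀ v ∈ V, a * v = v * a → v = 1 := by
    intro a ha1 hao v hv hav
    by_contra hv1
    obtain ⟨j, hj⟩ := hYp ⟨v, hv.1⟩
    exact odd_not_commute_two_elt hO hI a v ha1 hao hv1 j
      (by simpa using congrArg Subtype.val hj) hav
  haveI hVcomm : IsMulCommutative V := ⟨⟨fun a b => Subtype.ext (hVc a a.2 b b.2)⟩⟩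
  have hR₁cyc : IsCyclic R₁ := by
    apply Cfsg.Agent.H1.fpf_isCyclic R₁ V hVne
      (by rw [Subgroup.normalizer_eq_top]; exact le_top)
    · intro a ha ha1
      rw [eq_bot_iff]
      rintro v ⟨hv, hvc⟩
      rw [Subgroup.mem_bot]
      exact hfpf a ha1 (hR₁odd a ha) v hv
        (Subgroup.mem_centralizer_singleton_iff.mp
          (show v ∈ Subgroup.centralizer ({a} : Set H) from hvc)).symm
    · exact Or.inl ⟨⟨fun a b => Subtype.ext (hR₁c a a.2 b b.2)⟩⟩
  obtain ⟨g, hg⟩ := hR₁cyc.exists_generator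
  have hg1 : (g : H) ≠ 1 := by
    intro h
    apply hR₁ne
    rw [eq_bot_iff]
    intro a ha
    have h1 : g = 1 := Subtype.ext h
    have h2 := hg ⟨a, ha⟩
    rw [h1, Subgroup.zpowers_one_eq_bot, Subgroup.mem_bot] at h2
    rw [Subgroup.mem_bot]
    exact congrArg Subtype.val h2
  have hcard : Nat.card R₁ = r := by
    have h1 : orderOf g = Nat.card R₁ := orderOf_eq_card_of_forall_mem_zpowers hg
    have h2 : orderOf g ∣ r :=
      orderOf_dvd_of_pow_eq_one (Subtype.ext (by simpa using hR₁exp g g.2))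
    rcases (Nat.dvd_prime hr).mp h2 with h3 | h3
    · exact absurd (congrArg Subtype.val (orderOf_eq_one_iff.mp h3)) hg1
    · rw [← h1, h3]
  set C₁ := Subgroup.centralizer (R₁ : Set H) with hC₁
  have hC₁odd : Odd (Nat.card C₁) := by
    have hle : C₁ ≤ Subgroup.centralizer ({(g : H)} : Set H) :=
      Subgroup.centralizer_le (by
        intro a ha
        rw [Set.mem_singleton_iff] at ha
        rw [ha]; exact g.2)
    exact Odd.of_dvd_nat (odd_card_centralizer hO hI g hg1 (hR₁odd g g.2))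
      (Subgroup.card_dvd_of_le hle)
  set D := K ⊔ C₁ with hD
  have hfrat : Subgroup.normalizer (R₁ : Set H) ⊔ K = ⊤ := Sylow.normalizer_sup_eq_top R
  have hDn : D.Normal := by
    rw [← Subgroup.normalizer_eq_top_iff, eq_top_iff, ← hfrat]
    apply sup_le
    · exact Cfsg.Agent.H1.le_normalizer_sup _ K C₁
        (le_top.trans (Subgroup.normalizer_eq_top_iff.mpr hKn).ge)
        (Cfsg.Agent.H54.normalizer_le_normalizer_centralizer R₁)
    · exact (le_sup_left : K ≤ D).trans Subgroup.le_normalizer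
  haveI := hDn
  have hYD : Y ≤ D := hYK.trans le_sup_left
  have hDodd : Odd (Y.relIndex D) := by
    rw [← Subgroup.relIndex_mul_relIndex Y K D hYK le_sup_left]
    apply Odd.mul hrelodd
    rw [hD, Subgroup.relIndex_sup_left]
    exact Odd.of_dvd_nat hC₁odd (Subgroup.relIndex_dvd_card K C₁)
  refine ⟨D, hDn, le_sup_of_odd_relIndex X Y D hYD hDodd k hXidx, ?_⟩
  haveI := hR₁cyc
  haveI hAut : IsCyclic (MulAut R₁) := by
    have e := IsCyclic.mulAutMulEquiv R₁
    haveI : IsCyclic (ZMod (Nat.card R₁))ˣ := by rw [hcard]; infer_instance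
    exact isCyclic_of_surjective e.symm e.symm.surjective
  have hrange : IsCyclic (Subgroup.normalizerMonoidHom R₁).range := inferInstance
  obtain ⟨γ, hγ⟩ := hrange.exists_generator
  obtain ⟨n₀, hn₀⟩ := γ.2
  refine ⟨⟨QuotientGroup.mk' D n₀, ?_⟩⟩
  intro q
  obtain ⟨h, rfl⟩ := QuotientGroup.mk'_surjective D q
  have hh : h ∈ Subgroup.normalizer (R₁ : Set H) ⊔ K := by rw [hfrat]; trivial
  obtain ⟨n, hn, k', hk', rfl⟩ := Subgroup.mem_sup_of_normal_right.mp hh
  have hψ := hγ ⟨Subgroup.normalizerMonoidHom R₁ ⟨n, hn⟩, ⟨_, rfl⟩⟩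
  obtain ⟨j, hj⟩ := Subgroup.mem_zpowers_iff.mp hψ
  have hj' : (γ : MulAut R₁) ^ j = Subgroup.normalizerMonoidHom R₁ ⟨n, hn⟩ := by
    have := congrArg Subtype.val hj
    simpa using this
  have hker : (n₀ ^ j)⁻¹ * ⟨n, hn⟩ ∈ (Subgroup.normalizerMonoidHom R₁).ker := by
    rw [MonoidHom.mem_ker, map_mul, map_inv, map_zpow, hn₀, hj', inv_mul_cancel]
  rw [Subgroup.normalizerMonoidHom_ker, Subgroup.mem_subgroupOf] at hker
  refine Subgroup.mem_zpowers_iff.mpr ⟨j, ?_⟩
  rw [← map_zpow]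
  apply QuotientGroup.eq.mpr
  have h5 : ((n₀ : H) ^ j)⁻¹ * (n * k') = (((n₀ : H) ^ j)⁻¹ * n) * k' := by group
  rw [h5]
  apply D.mul_mem
  · apply (le_sup_right : C₁ ≤ D)
    simpa using hker
  · exact (le_sup_left : K ≤ D) hk'

/-- `Z(O₂(H))`, as the subgroup `O₂(H) ⊓ C_H(O₂(H))`, is nontrivial when `O₂(H)` is. -/
theorem pCore_inf_centralizer_ne_bot {H : Type*} [Group H] [Finite H]
    (hYbot : Cfsg.pCore 2 H ≠ ⊥) :
    Cfsg.pCore 2 H ⊓ Subgroup.centralizer (Cfsg.pCore 2 H : Set H) ≠ ⊥ := by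
  haveI : Fact (Nat.Prime 2) := ⟨Nat.prime_two⟩
  set Y := Cfsg.pCore 2 H with hY
  have hYp : IsPGroup 2 Y := pCore_isPGroup 2 H
  haveI : Nontrivial Y := (Subgroup.nontrivial_iff_ne_bot Y).mpr hYbot
  haveI := hYp.center_nontrivial
  obtain ⟨z, hz⟩ := exists_ne (1 : Subgroup.center Y)
  intro h
  apply hz
  have hzV : ((z : Y) : H) ∈ Y ⊓ Subgroup.centralizer (Y : Set H) := by
    refine Subgroup.mem_inf.mpr ⟨(z : Y).2, ?_⟩
    rw [Subgroup.mem_centralizer_iff]
    intro y hy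
    have := Subgroup.mem_center_iff.mp z.2 ⟨y, hy⟩
    exact congrArg Subtype.val this
  rw [h, Subgroup.mem_bot] at hzV
  exact Subtype.ext (Subtype.ext hzV)

/-- If `O₂(H) = 1` (and `O(H) = 1`, `H` solvable), then `H` is trivial. -/
theorem subsingleton_of_pCore_eq_bot {H : Type*} [Group H] [Finite H] [Group.IsSolvable H]
    (hO : Cfsg.pPrimeCore 2 H = ⊥) (hYbot : Cfsg.pCore 2 H = ⊥) : Subsingleton H := by
  haveI : Fact (Nat.Prime 2) := ⟨Nat.prime_two⟩
  have hC : Subgroup.centralizer (Cfsg.pCore 2 H : Set H) ≤ Cfsg.pCore 2 H :=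
    Cfsg.Agent.H1.centralizer_pCore_le 2 hO
  rw [hYbot] at hC
  refine ⟨fun a b => ?_⟩
  have h1 : ∀ x : H, x = 1 := by
    intro x
    have hx : x ∈ Subgroup.centralizer (((⊥ : Subgroup H) : Subgroup H) : Set H) := by
      rw [Subgroup.mem_centralizer_iff]
      intro y hy
      have hy1 : y = 1 := by simpa using hy
      rw [hy1, one_mul, mul_one]
    simpa using hC hx
  rw [h1 a, h1 b]

end Cfsg.Agent.H13
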