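import Mathlib
import Cfsg.Agent.H83.PCDefs

/-!
# PC-COORD (helper13, for helper83's S3366)

Heisenberg coordinates on `R` adapted to the involution `t`.
-/

set_option autoImplicit false

namespace Cfsg.Agent.H13.PC

open Cfsg.Agent.H83.PC

universe u

section Aux

variable {X : Type u} [Group X]

/-- powers of an element of exponent 3 depend on the exponent modulo 3 only -/
theorem coord_pow_congr {g : X} (hg : g ^ 3 = 1) {m n : ℕ} (h : (m : ZMod 3) = (n : ZMod 3)) :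
    g ^ m = g ^ n := by
  rw [pow_eq_pow_mod m hg, pow_eq_pow_mod n hg]
  congr 1
  exact (ZMod.natCast_eq_natCast_iff' m n 3).mp h

theorem coord_inv_pow {g : X} (hg : g ^ 3 = 1) (e : ZMod 3) : g⁻¹ ^ e.val = g ^ (-e).val := by
  rw [inv_pow, inv_eq_iff_eq_inv, eq_inv_iff_mul_eq_one, ← pow_add]
  have h : ((e.val + (-e).val : ℕ) : ZMod 3) = ((0 : ℕ) : ZMod 3) := by
    push_cast
    rw [ZMod.natCast_zmod_val, ZMod.natCast_zmod_val]
    ring
  rw [coord_pow_congr hg h, pow_zero]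

theorem coord_pow_comm (r1 r2 ζ : X) (hc1 : Commute ζ r1) (hc2 : Commute ζ r2)
    (hcomm : r2 * r1 = ζ * r1 * r2) (m n : ℕ) :
    r2 ^ m * r1 ^ n = ζ ^ (m * n) * r1 ^ n * r2 ^ m := by
  have h1 : ∀ n : ℕ, r2 * r1 ^ n = ζ ^ n * r1 ^ n * r2 := by
    intro n
    induction n with
    | zero => simp
    | succ n ih =>
      calc r2 * r1 ^ (n + 1) = (r2 * r1 ^ n) * r1 := by rw [pow_succ, mul_assoc]
        _ = ζ ^ n * r1 ^ n * (r2 * r1) := by rw [ih]; simp only [mul_assoc]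
        _ = ζ ^ n * r1 ^ n * (ζ * r1 * r2) := by rw [hcomm]
        _ = ζ ^ n * (r1 ^ n * ζ) * r1 * r2 := by simp only [mul_assoc]
        _ = ζ ^ n * (ζ * r1 ^ n) * r1 * r2 := by rw [(hc1.pow_right n).eq]
        _ = ζ ^ (n + 1) * r1 ^ (n + 1) * r2 := by
          rw [pow_succ, pow_succ]; simp only [mul_assoc]
  induction m with
  | zero => simp
  | succ m ih =>
    calc r2 ^ (m + 1) * r1 ^ n = r2 * (r2 ^ m * r1 ^ n) := by rw [pow_succ', mul_assoc]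
      _ = r2 * (ζ ^ (m * n) * r1 ^ n * r2 ^ m) := by rw [ih]
      _ = (r2 * ζ ^ (m * n)) * r1 ^ n * r2 ^ m := by simp only [mul_assoc]
      _ = (ζ ^ (m * n) * r2) * r1 ^ n * r2 ^ m := by rw [(hc2.pow_left (m * n)).eq]
      _ = ζ ^ (m * n) * (r2 * r1 ^ n) * r2 ^ m := by simp only [mul_assoc]
      _ = ζ ^ (m * n) * (ζ ^ n * r1 ^ n * r2) * r2 ^ m := by rw [h1]
      _ = ζ ^ ((m + 1) * n) * r1 ^ n * r2 ^ (m + 1) := by
        rw [add_mul, one_mul, pow_add, pow_succ']; simp only [mul_assoc]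

theorem coord_grp (P Q P' Q' Z1 Z2 Z3 : X) (hZ1P' : Commute Z1 P') (hZ1Q' : Commute Z1 Q')
    (hZ3P' : Commute Z3 P') (hZ3Q : Commute Z3 Q) (hZ3Q' : Commute Z3 Q')
    (hQP : Q * P' = Z3 * P' * Q) :
    P * Q * Z1 * (P' * Q' * Z2) = P * P' * (Q * Q') * (Z3 * Z1 * Z2) := by
  calc P * Q * Z1 * (P' * Q' * Z2) = P * Q * (Z1 * P') * Q' * Z2 := by simp only [mul_assoc]
    _ = P * Q * (P' * Z1) * Q' * Z2 := by rw [hZ1P'.eq]
    _ = P * (Q * P') * (Z1 * Q') * Z2 := by simp only [mul_assoc]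
    _ = P * (Z3 * P' * Q) * (Q' * Z1) * Z2 := by rw [hQP, hZ1Q'.eq]
    _ = P * (Z3 * P') * (Q * Q') * (Z1 * Z2) := by simp only [mul_assoc]
    _ = P * (P' * Z3) * (Q * Q') * (Z1 * Z2) := by rw [hZ3P'.eq]
    _ = P * P' * (Z3 * (Q * Q')) * (Z1 * Z2) := by simp only [mul_assoc]
    _ = P * P' * ((Q * Q') * Z3) * (Z1 * Z2) := by rw [(hZ3Q.mul_right hZ3Q').eq]
    _ = P * P' * (Q * Q') * (Z3 * Z1 * Z2) := by simp only [mul_assoc]

/-- the coordinate map -/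
def coordFun (r1 r2 ζ : X) (h : Heis) : X :=
  r1 ^ h.a.val * r2 ^ h.b.val * ζ ^ (h.z - h.a * h.b).val

theorem coordFun_mul (r1 r2 ζ : X) (h1 : r1 ^ 3 = 1) (h2 : r2 ^ 3 = 1) (hζ : ζ ^ 3 = 1)
    (hc1 : Commute ζ r1) (hc2 : Commute ζ r2) (hcomm : r2 * r1 = ζ * r1 * r2) (h k : Heis) :
    coordFun r1 r2 ζ (h * k) = coordFun r1 r2 ζ h * coordFun r1 r2 ζ k := by
  unfold coordFun
  have e1 : r1 ^ (h * k).a.val = r1 ^ h.a.val * r1 ^ k.a.val := by
    rw [← pow_add]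
    apply coord_pow_congr h1
    push_cast
    simp only [ZMod.natCast_zmod_val, Heis.mul_a]
  have e2 : r2 ^ (h * k).b.val = r2 ^ h.b.val * r2 ^ k.b.val := by
    rw [← pow_add]
    apply coord_pow_congr h2
    push_cast
    simp only [ZMod.natCast_zmod_val, Heis.mul_b]
  have h3 : (3 : ZMod 3) = 0 := by decide
  have e3 : ζ ^ ((h * k).z - (h * k).a * (h * k).b).val =
      ζ ^ (h.b.val * k.a.val) * ζ ^ (h.z - h.a * h.b).val * ζ ^ (k.z - k.a * k.b).val := by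
    rw [← pow_add, ← pow_add]
    apply coord_pow_congr hζ
    push_cast
    simp only [ZMod.natCast_zmod_val, Heis.mul_a, Heis.mul_b, Heis.mul_z]
    linear_combination (-(h.b * k.a)) * h3
  rw [e1, e2, e3]
  exact (coord_grp (r1 ^ h.a.val) (r2 ^ h.b.val) (r1 ^ k.a.val) (r2 ^ k.b.val)
    (ζ ^ (h.z - h.a * h.b).val) (ζ ^ (k.z - k.a * k.b).val) (ζ ^ (h.b.val * k.a.val))
    (hc1.pow_pow _ _) (hc2.pow_pow _ _) (hc1.pow_pow _ _) (hc2.pow_pow _ _) (hc2.pow_pow _ _)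
    (coord_pow_comm r1 r2 ζ hc1 hc2 hcomm _ _)).symm

end Aux

theorem heis_comm_x : ∀ h : Heis, h * ⟨1, 0, 0⟩ * h⁻¹ * (⟨1, 0, 0⟩ : Heis)⁻¹ = ⟨0, 0, h.b⟩ := by
  decide

theorem heis_comm_y : ∀ h : Heis, h * ⟨0, 1, 0⟩ * h⁻¹ * (⟨0, 1, 0⟩ : Heis)⁻¹ = ⟨0, 0, -h.a⟩ := by
  decide

theorem heis_card : Nat.card Heis = 27 := by
  rw [Nat.card_eq_fintype_card]
  decide

/-- **PC-COORD**. -/
theorem coord : StCoord.{u} := by
  intro X _ _ R N t hD
  obtain ⟨hRn, hR27, hexp, ⟨a, ha, b, hb, hab⟩, hN24, hRN, hX, htN, ht1, htt, hNt, hinv, hNz,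
    hfaith⟩ := hD
  have htz : ∀ z, IsZ R z → t * z * t⁻¹ = z := by
    intro z hz
    rw [hNz t htN z hz, mul_inv_cancel_right]
  -- representatives inverted by `t`
  have hrep : ∀ r ∈ R, ∃ z, IsZ R z ∧ t * (r * z) * t⁻¹ = (r * z)⁻¹ := by
    intro r hr
    obtain ⟨z, hzdef⟩ : ∃ z, z = t * r * t⁻¹ * r := ⟨_, rfl⟩
    have hz : IsZ R z := by rw [hzdef]; exact hinv r hr
    have hz3 : z ^ 3 = 1 := hexp z hz.1
    have hz2 : z * z = z⁻¹ := by
      rw [eq_inv_iff_mul_eq_one, ← hz3, pow_succ, pow_two]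
    have e1 : t * r * t⁻¹ = z * r⁻¹ := by rw [hzdef]; group
    refine ⟨z, hz, ?_⟩
    calc t * (r * z) * t⁻¹ = (t * r * t⁻¹) * (t * z * t⁻¹) := by group
      _ = (z * r⁻¹) * z := by rw [e1, htz z hz]
      _ = z * z * r⁻¹ := by rw [mul_assoc, ← hz.2 r⁻¹ (inv_mem hr), mul_assoc]
      _ = (r * z)⁻¹ := by rw [hz2, mul_inv_rev]
  obtain ⟨za, hza, hta⟩ := hrep a ha
  obtain ⟨zb, hzb, htb⟩ := hrep b hb
  obtain ⟨r1, hr1⟩ : ∃ r1, r1 = a * za := ⟨_, rfl⟩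
  obtain ⟨r2, hr2⟩ : ∃ r2, r2 = b * zb := ⟨_, rfl⟩
  rw [← hr1] at hta
  rw [← hr2] at htb
  have hr1R : r1 ∈ R := by rw [hr1]; exact mul_mem ha hza.1
  have hr2R : r2 ∈ R := by rw [hr2]; exact mul_mem hb hzb.1
  have hne : r1 * r2 ≠ r2 * r1 := by
    intro h
    rw [hr1, hr2] at h
    have h' : a * b * (za * zb) = b * a * (za * zb) := by
      calc a * b * (za * zb) = a * (b * za) * zb := by group
        _ = a * (za * b) * zb := by rw [hza.2 b hb]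
        _ = (a * za) * (b * zb) := by group
        _ = (b * zb) * (a * za) := h
        _ = b * (zb * a) * za := by group
        _ = b * (a * zb) * za := by rw [hzb.2 a ha]
        _ = b * a * (zb * za) := by group
        _ = b * a * (za * zb) := by rw [hzb.2 za hza.1]
    exact hab (mul_right_cancel h')
  obtain ⟨ζ, hζdef⟩ : ∃ ζ, ζ = r2 * r1 * r2⁻¹ * r1⁻¹ := ⟨_, rfl⟩
  have hζ : IsZ R ζ := by
    have h1 := hinv (r2⁻¹ * r1⁻¹) (mul_mem (inv_mem hr2R) (inv_mem hr1R))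
    have e : t * (r2⁻¹ * r1⁻¹) * t⁻¹ * (r2⁻¹ * r1⁻¹) = ζ := by
      have e1 : t * (r2⁻¹ * r1⁻¹) * t⁻¹ = (t * r2 * t⁻¹)⁻¹ * (t * r1 * t⁻¹)⁻¹ := by group
      rw [e1, htb, hta, inv_inv, inv_inv, hζdef]
      group
    rwa [e] at h1
  have hζ1 : ζ ≠ 1 := by
    intro h
    apply hne
    have h2 : r2 * r1 = ζ * r1 * r2 := by rw [hζdef]; group
    rw [h2, h, one_mul]
  have hζ3 : ζ ^ 3 = 1 := hexp ζ hζ.1
  have hcomm : r2 * r1 = ζ * r1 * r2 := by rw [hζdef]; group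
  have hc1 : Commute ζ r1 := hζ.2 r1 hr1R
  have hc2 : Commute ζ r2 := hζ.2 r2 hr2R
  have h13 : r1 ^ 3 = 1 := hexp r1 hr1R
  have h23 : r2 ^ 3 = 1 := hexp r2 hr2R
  obtain ⟨α, hα⟩ : ∃ α : Heis →* X, ∀ h, α h = coordFun r1 r2 ζ h :=
    ⟨MonoidHom.mk' (coordFun r1 r2 ζ) (coordFun_mul r1 r2 ζ h13 h23 hζ3 hc1 hc2 hcomm),
      fun _ => rfl⟩
  have hαz : ∀ e : ZMod 3, α ⟨0, 0, e⟩ = ζ ^ e.val := by
    intro e
    rw [hα]
    unfold coordFun
    simp
  have hαx : α ⟨1, 0, 0⟩ = r1 := by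
    rw [hα]
    unfold coordFun
    simp [ZMod.val_one]
  have hαy : α ⟨0, 1, 0⟩ = r2 := by
    rw [hα]
    unfold coordFun
    simp [ZMod.val_one]
  have hζpow : ∀ e : ZMod 3, ζ ^ e.val = 1 → e = 0 := by
    intro e he
    have hlt : e.val < 3 := ZMod.val_lt e
    rw [← ZMod.val_eq_zero]
    by_contra hne0
    have h12 : e.val = 1 ∨ e.val = 2 := by omega
    rcases h12 with h | h
    · rw [h, pow_one] at he
      exact hζ1 he
    · rw [h] at he
      apply hζ1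
      have h3 : ζ ^ 3 = ζ ^ 2 * ζ := pow_succ ζ 2
      rw [hζ3, he, one_mul] at h3
      exact h3.symm
  have hinj : Function.Injective α := by
    rw [injective_iff_map_eq_one]
    intro h hh
    have hb0 : h.b = 0 := by
      apply hζpow
      rw [← hαz, ← heis_comm_x h]
      simp only [map_mul, map_inv, hh]
      group
    have ha0 : h.a = 0 := by
      have h1 : -h.a = 0 := by
        apply hζpow
        rw [← hαz, ← heis_comm_y h]
        simp only [map_mul, map_inv, hh]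
        group
      exact neg_eq_zero.mp h1
    have hz0 : h.z = 0 := by
      apply hζpow
      rw [← hαz]
      have : (⟨0, 0, h.z⟩ : Heis) = h := by
        ext
        · exact ha0.symm
        · exact hb0.symm
        · rfl
      rw [this, hh]
    ext
    · exact ha0
    · exact hb0
    · exact hz0
  have hle : α.range ≤ R := by
    rintro _ ⟨h, rfl⟩
    rw [hα]
    exact mul_mem (mul_mem (pow_mem hr1R _) (pow_mem hr2R _)) (pow_mem hζ.1 _)
  have hrange : α.range = R := by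
    apply Subgroup.eq_of_le_of_card_ge hle
    rw [hR27, ← heis_card]
    exact (Nat.card_congr (Equiv.ofInjective α hinj)).le
  refine ⟨α, hinj, hrange, ?_⟩
  intro h
  rw [hα, hα]
  unfold coordFun
  have e1 : t * (r1 ^ h.a.val * r2 ^ h.b.val * ζ ^ (h.z - h.a * h.b).val) * t⁻¹ =
      (t * r1 * t⁻¹) ^ h.a.val * (t * r2 * t⁻¹) ^ h.b.val *
        (t * ζ * t⁻¹) ^ (h.z - h.a * h.b).val := by
    simp only [← MulAut.conj_apply, map_mul, map_pow]
  rw [e1, hta, htb, htz ζ hζ, coord_inv_pow h13, coord_inv_pow h23]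
  have e2 : h.z - -h.a * -h.b = h.z - h.a * h.b := by ring
  show _ = r1 ^ (-h.a).val * r2 ^ (-h.b).val * ζ ^ (h.z - -h.a * -h.b).val
  rw [e2]

example : Cfsg.Agent.H83.PC.StCoord.{u} := coord

end Cfsg.Agent.H13.PC

#print axioms Cfsg.Agent.H13.PC.coord
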