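import Mathlib
import Cfsg.Agent.H9.PGDefs

/-!
# PG-ORD (helper13, parallel take for helper9's S3662): elements of order 6 and 10
-/

set_option autoImplicit false

namespace Cfsg.Agent.H13.PG

open Cfsg.Agent.H9.PG
open scoped Matrix

set_option maxRecDepth 100000 in
theorem ord_W6_pow : W6 ^ 6 = 1 ∧ W6 ^ 2 ≠ 1 ∧ W6 ^ 3 ≠ 1 := by decide +kernel

set_option maxRecDepth 100000 in
theorem ord_W10_pow : W10 ^ 10 = 1 ∧ W10 ^ 2 ≠ 1 ∧ W10 ^ 5 ≠ 1 := by decide +kernel

/-- **PG-ORD**. -/
theorem ord : StOrd := by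
  constructor
  · apply orderOf_eq_of_pow_and_pow_div_prime (by norm_num) ord_W6_pow.1
    intro p hp hpd
    have h : p = 2 ∨ p = 3 := by
      have hle : p ≤ 6 := Nat.le_of_dvd (by norm_num) hpd
      interval_cases p <;> simp_all (config := {decide := true})
    rcases h with rfl | rfl
    · exact ord_W6_pow.2.2
    · exact ord_W6_pow.2.1
  · apply orderOf_eq_of_pow_and_pow_div_prime (by norm_num) ord_W10_pow.1
    intro p hp hpd
    have h : p = 2 ∨ p = 5 := by
      have hle : p ≤ 10 := Nat.le_of_dvd (by norm_num) hpd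
      interval_cases p <;> simp_all (config := {decide := true})
    rcases h with rfl | rfl
    · exact ord_W10_pow.2.2
    · exact ord_W10_pow.2.1

example : Cfsg.Agent.H9.PG.StOrd := ord

end Cfsg.Agent.H13.PG

#print axioms Cfsg.Agent.H13.PG.ord
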