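import Mathlib
import Cfsg.Agent.H9.PGDefs

/-!
# PG-SYL (helper13, for helper9's S3662)

If `p` divides the order of `L` exactly once and one element `g` with `ρ(g)^p = 1` has no nonzero
fixed vector, then no element of order `p` has a nonzero fixed vector (Sylow conjugacy).
-/

set_option autoImplicit false

namespace Cfsg.Agent.H13.PG

open Cfsg.Agent.H9.PG
open scoped Matrix Pointwise

universe u

/-- the stabiliser of a vector -/
def sylFix (x : Fin 6 → K4) : Subgroup (GL (Fin 6) K4) where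
  carrier := {A | (A : Matrix (Fin 6) (Fin 6) K4) *ᵥ x = x}
  mul_mem' := by
    intro A B hA hB
    show ((A * B : GL (Fin 6) K4) : Matrix (Fin 6) (Fin 6) K4) *ᵥ x = x
    have hA' : (A : Matrix (Fin 6) (Fin 6) K4) *ᵥ x = x := hA
    have hB' : (B : Matrix (Fin 6) (Fin 6) K4) *ᵥ x = x := hB
    rw [Units.val_mul, ← Matrix.mulVec_mulVec, hB', hA']
  one_mem' := by
    show ((1 : GL (Fin 6) K4) : Matrix (Fin 6) (Fin 6) K4) *ᵥ x = x
    rw [Units.val_one, Matrix.one_mulVec]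
  inv_mem' := by
    intro A hA
    show ((A⁻¹ : GL (Fin 6) K4) : Matrix (Fin 6) (Fin 6) K4) *ᵥ x = x
    have hA' : (A : Matrix (Fin 6) (Fin 6) K4) *ᵥ x = x := hA
    calc ((A⁻¹ : GL (Fin 6) K4) : Matrix (Fin 6) (Fin 6) K4) *ᵥ x
        = ((A⁻¹ : GL (Fin 6) K4) : Matrix (Fin 6) (Fin 6) K4) *ᵥ
            ((A : Matrix (Fin 6) (Fin 6) K4) *ᵥ x) := by rw [hA']
      _ = x := by
        rw [Matrix.mulVec_mulVec, ← Units.val_mul, inv_mul_cancel, Units.val_one,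
          Matrix.one_mulVec]

theorem mem_sylFix (x : Fin 6 → K4) (A : GL (Fin 6) K4) :
    A ∈ sylFix x ↔ (A : Matrix (Fin 6) (Fin 6) K4) *ᵥ x = x := Iff.rfl

theorem sylFix_conj (x : Fin 6 → K4) (A C : GL (Fin 6) K4) (hA : A ∈ sylFix x) :
    C * A * C⁻¹ ∈ sylFix ((C : Matrix (Fin 6) (Fin 6) K4) *ᵥ x) := by
  have hA' : (A : Matrix (Fin 6) (Fin 6) K4) *ᵥ x = x := hA
  show ((C * A * C⁻¹ : GL (Fin 6) K4) : Matrix (Fin 6) (Fin 6) K4) *ᵥ
    ((C : Matrix (Fin 6) (Fin 6) K4) *ᵥ x) = (C : Matrix (Fin 6) (Fin 6) K4) *ᵥ x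
  rw [Matrix.mulVec_mulVec, ← Units.val_mul]
  have h : C * A * C⁻¹ * C = C * A := by group
  rw [h, Units.val_mul, ← Matrix.mulVec_mulVec, hA']

/-- **PG-SYL**. -/
theorem syl : StSyl.{u} := by
  intro L _ _ ρ p hp hpdvd hp2 g hgp hgfix y hy x hx
  have : Fact p.Prime := ⟨hp⟩
  have hρg1 : ρ g ≠ 1 := by
    intro h1
    have h2 := hgfix (Pi.single 0 1) (by rw [h1, Units.val_one, Matrix.one_mulVec])
    have h3 := congrFun h2 0
    rw [Pi.single_eq_same] at h3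
    exact one_ne_zero h3
  have hordρ : orderOf (ρ g) = p := orderOf_eq_prime hgp hρg1
  have hpn : p ∣ orderOf g := by
    rw [← hordρ]
    exact orderOf_map_dvd ρ g
  obtain ⟨m, hm⟩ := hpn
  have hcard0 : Nat.card L ≠ 0 := Nat.card_pos.ne'
  have hgL : orderOf g ∣ Nat.card L := orderOf_dvd_natCard g
  have hpm : ¬ p ∣ m := by
    intro h
    apply hp2
    obtain ⟨m', rfl⟩ := h
    exact dvd_trans ⟨m', by rw [hm]; ring⟩ hgL
  have hm0 : 0 < m := by
    rcases Nat.eq_zero_or_pos m with h | h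
    · rw [h, mul_zero] at hm
      exact absurd hm (orderOf_pos g).ne'
    · exact h
  have hg'ord : orderOf (g ^ m) = p := by
    rw [orderOf_pow' g hm0.ne', hm, Nat.gcd_eq_right (dvd_mul_left m p)]
    exact Nat.mul_div_cancel _ hm0
  obtain ⟨k, -, hk⟩ := Nat.exists_mul_mod_eq_one_of_coprime (k := p) (n := m)
    ((Nat.Prime.coprime_iff_not_dvd hp).mpr hpm).symm hp.one_lt
  have hρpow : ρ g = (ρ (g ^ m)) ^ k := by
    rw [map_pow, ← pow_mul, pow_eq_pow_mod (m * k) hgp, hk, pow_one]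
  have hfac : (Nat.card L).factorization p = 1 := by
    have h1 : 1 ≤ (Nat.card L).factorization p :=
      (hp.pow_dvd_iff_le_factorization hcard0).mp (by simpa using hpdvd)
    have h2 : ¬ 2 ≤ (Nat.card L).factorization p :=
      fun h => hp2 ((hp.pow_dvd_iff_le_factorization hcard0).mpr h)
    omega
  obtain ⟨P, hP⟩ : ∃ P : Sylow p L, (P : Subgroup L) = Subgroup.zpowers (g ^ m) :=
    ⟨Sylow.ofCard (Subgroup.zpowers (g ^ m)) (by rw [Nat.card_zpowers, hg'ord, hfac, pow_one]),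
      Sylow.coe_ofCard _ _⟩
  obtain ⟨Q, hQ⟩ : ∃ Q : Sylow p L, (Q : Subgroup L) = Subgroup.zpowers y :=
    ⟨Sylow.ofCard (Subgroup.zpowers y) (by rw [Nat.card_zpowers, hy, hfac, pow_one]),
      Sylow.coe_ofCard _ _⟩
  obtain ⟨c, hc⟩ := MulAction.exists_smul_eq L Q P
  have hmem : g ^ m ∈ ((c • Q : Sylow p L) : Subgroup L) := by
    rw [hc, hP]
    exact Subgroup.mem_zpowers _
  rw [Sylow.coe_subgroup_smul, Subgroup.mem_smul_pointwise_iff_exists] at hmem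
  obtain ⟨s, hs, hsg⟩ := hmem
  rw [hQ] at hs
  obtain ⟨j, rfl⟩ := Subgroup.mem_zpowers_iff.mp hs
  have hsg' : c * y ^ j * c⁻¹ = g ^ m := hsg
  -- the fixed vector
  have hy' : ρ y ∈ sylFix x := hx
  have h1 : ρ (y ^ j) ∈ sylFix x := by
    rw [map_zpow]
    exact zpow_mem hy' j
  have h2 : ρ (g ^ m) ∈ sylFix ((ρ c : Matrix (Fin 6) (Fin 6) K4) *ᵥ x) := by
    rw [← hsg', map_mul, map_mul, map_inv]
    exact sylFix_conj x _ _ h1
  have h4 : ρ g ∈ sylFix ((ρ c : Matrix (Fin 6) (Fin 6) K4) *ᵥ x) := by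
    rw [hρpow]
    exact pow_mem h2 k
  have h5 := hgfix _ h4
  have h6 : (((ρ c)⁻¹ : GL (Fin 6) K4) : Matrix (Fin 6) (Fin 6) K4) *ᵥ
      ((ρ c : Matrix (Fin 6) (Fin 6) K4) *ᵥ x) = x := by
    rw [Matrix.mulVec_mulVec, ← Units.val_mul, inv_mul_cancel, Units.val_one, Matrix.one_mulVec]
  rw [← h6, h5, Matrix.mulVec_zero]

example : Cfsg.Agent.H9.PG.StSyl.{u} := syl

end Cfsg.Agent.H13.PG

#print axioms Cfsg.Agent.H13.PG.syl
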