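import Mathlib
import Cfsg.Prelude.Def_Local
import Cfsg.Agent.H80.PSolvable
import Cfsg.Agent.H80.SolvPSolv
import Cfsg.Agent.H14.PSolv
import Cfsg.Agent.H3.SplitResidual

set_option autoImplicit false
set_option linter.style.haveILetI false
open Cfsg

/-!
# helper13: groups whose maximal subgroups are `p`-nilpotent or of prime index

A `p`-solvable group all of whose maximal subgroups have a normal `p`-complement or prime index
has a normal series of shape `p', p, p', p, p'` (and `p', p, p', p` when `p = 2`).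
-/

namespace Cfsg.Agent.H13.PLen

universe u

/-- Every maximal subgroup has a normal `p`-complement or prime index. -/
def MaxHyp (p : ℕ) (G : Type*) [Group G] : Prop :=
  ∀ M : Subgroup G, IsCoatom M →
    (∃ K : Subgroup ↥M, K.Normal ∧ ¬ p ∣ Nat.card K ∧ ∃ k : ℕ, K.index = p ^ k) ∨ (M.index).Prime

/-- A normal series `N ≤ A ≤ B ≤ C ≤ D ≤ G` of shape `p', p, p', p, p'` above `N`,
with `D = ⊤` when `p = 2`. -/
def Shape (p : ℕ) {G : Type*} [Group G] (N : Subgroup G) : Prop :=
  ∃ A B C D : Subgroup G, A.Normal ∧ B.Normal ∧ C.Normal ∧ D.Normal ∧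
    N ≤ A ∧ A ≤ B ∧ B ≤ C ∧ C ≤ D ∧
    ¬ p ∣ N.relIndex A ∧ (∃ k : ℕ, A.relIndex B = p ^ k) ∧ ¬ p ∣ B.relIndex C ∧
    (∃ k : ℕ, C.relIndex D = p ^ k) ∧ ¬ p ∣ D.index ∧ (p = 2 → D = ⊤)

theorem maxHyp_quotient {G : Type*} [Group G] [Finite G] (p : ℕ) [Fact p.Prime]
    (N : Subgroup G) [N.Normal] (h : MaxHyp p G) : MaxHyp p (G ⧸ N) := by
  have hp : p.Prime := Fact.out
  intro Mb hMb
  have hsurj := QuotientGroup.mk'_surjective N
  obtain ⟨M, hM⟩ : ∃ M, M = Mb.comap (QuotientGroup.mk' N) := ⟨_, rfl⟩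
  have hmapM : M.map (QuotientGroup.mk' N) = Mb := by
    rw [hM]; exact Subgroup.map_comap_eq_self_of_surjective hsurj Mb
  have hcoatom : IsCoatom M := by
    constructor
    · intro htop
      apply hMb.1
      rw [← hmapM, htop]
      exact Subgroup.map_top_of_surjective _ hsurj
    · intro X hX
      have h1 : Mb ≤ X.map (QuotientGroup.mk' N) := by
        rw [← hmapM]; exact Subgroup.map_mono hX.le
      have hNX : N ≤ X := by
        refine le_trans ?_ hX.le
        rw [hM]
        intro x hx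
        rw [Subgroup.mem_comap]
        have : (QuotientGroup.mk' N) x = 1 := by
          rw [QuotientGroup.mk'_apply, QuotientGroup.eq_one_iff]; exact hx
        rw [this]; exact Mb.one_mem
      have hcm : (X.map (QuotientGroup.mk' N)).comap (QuotientGroup.mk' N) = X := by
        rw [Subgroup.comap_map_eq, QuotientGroup.ker_mk']
        exact sup_eq_left.mpr hNX
      rcases eq_or_lt_of_le h1 with h2 | h2
      · exfalso
        have : X = M := by rw [← hcm, ← h2, hM]
        exact (ne_of_gt hX) this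
      · have h3 := hMb.2 _ h2
        rw [← hcm, h3]
        exact Subgroup.comap_top _
  have hidx : M.index = Mb.index := by
    rw [hM]; exact Subgroup.index_comap_of_surjective Mb hsurj
  rcases h M hcoatom with ⟨K, hKn, hKc, k, hKi⟩ | hprime
  · left
    subst hM
    obtain ⟨φ, hφ⟩ : ∃ φ : ↥(Mb.comap (QuotientGroup.mk' N)) →* ↥Mb, Function.Surjective φ :=
      ⟨(QuotientGroup.mk' N).subgroupComap Mb,
        (QuotientGroup.mk' N).subgroupComap_surjective_of_surjective Mb hsurj⟩
    refine ⟨K.map φ, hKn.map φ hφ, ?_, ?_⟩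
    · intro hdvd
      exact hKc (hdvd.trans (Subgroup.card_map_dvd K φ))
    · have h5 := Subgroup.index_map_dvd K hφ
      rw [hKi] at h5
      obtain ⟨j, -, hj⟩ := (Nat.dvd_prime_pow hp).mp h5
      exact ⟨j, hj⟩
  · right
    rw [← hidx]; exact hprime

theorem shape_of_quotient {G : Type*} [Group G] [Finite G] (p : ℕ)
    (N : Subgroup G) [N.Normal] (h : Shape p (⊥ : Subgroup (G ⧸ N))) : Shape p N := by
  obtain ⟨A, B, C, D, hA, hB, hC, hD, -, hAB, hBC, hCD, h1, h2, h3, h4, h5, h6⟩ := h
  have hsurj := QuotientGroup.mk'_surjective N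
  have hrel : ∀ X Y : Subgroup (G ⧸ N),
      (X.comap (QuotientGroup.mk' N)).relIndex (Y.comap (QuotientGroup.mk' N)) = X.relIndex Y := by
    intro X Y
    rw [Subgroup.relIndex_comap, Subgroup.map_comap_eq_self_of_surjective hsurj]
  have hN : N = (⊥ : Subgroup (G ⧸ N)).comap (QuotientGroup.mk' N) := by
    rw [MonoidHom.comap_bot, QuotientGroup.ker_mk']
  refine ⟨A.comap (QuotientGroup.mk' N), B.comap (QuotientGroup.mk' N),
    C.comap (QuotientGroup.mk' N), D.comap (QuotientGroup.mk' N),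
    hA.comap _, hB.comap _, hC.comap _, hD.comap _, ?_, Subgroup.comap_mono hAB,
    Subgroup.comap_mono hBC, Subgroup.comap_mono hCD, ?_, ?_, ?_, ?_, ?_, ?_⟩
  · conv_lhs => rw [hN]
    exact Subgroup.comap_mono bot_le
  · conv => enter [1, 2, 1]; rw [hN]
    rw [hrel]; exact h1
  · rw [hrel]; exact h2
  · rw [hrel]; exact h3
  · rw [hrel]; exact h4
  · rw [Subgroup.index_comap_of_surjective D hsurj]; exact h5
  · intro h2'
    rw [h6 h2']; exact Subgroup.comap_top _


/-- A minimal normal subgroup inside a nontrivial normal `p`-subgroup; it is abelian. -/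
theorem exists_min_normal {G : Type*} [Group G] [Finite G] (p : ℕ) [Fact p.Prime]
    (P : Subgroup G) (hPn : P.Normal) (hP : IsPGroup p P) (hne : P ≠ ⊥) :
    ∃ N : Subgroup G, N.Normal ∧ N ≠ ⊥ ∧ IsPGroup p N ∧ (∀ a ∈ N, ∀ b ∈ N, a * b = b * a) ∧
      ∀ M : Subgroup G, M.Normal → M ≤ N → M = ⊥ ∨ M = N := by
  classical
  have hex : ∃ n, ∃ N : Subgroup G, N.Normal ∧ N ≠ ⊥ ∧ N ≤ P ∧ Nat.card N = n :=
    ⟨_, P, hPn, hne, le_rfl, rfl⟩
  obtain ⟨N, hNn, hNb, hNP, hNc⟩ := Nat.find_spec hex
  have hmin : ∀ M : Subgroup G, M.Normal → M ≤ N → M = ⊥ ∨ M = N := by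
    intro M hMn hMN
    by_cases hM : M = ⊥
    · exact Or.inl hM
    · right
      have h1 : Nat.find hex ≤ Nat.card M := Nat.find_min' hex ⟨M, hMn, hM, hMN.trans hNP, rfl⟩
      exact Subgroup.eq_of_le_of_card_ge hMN (by rw [hNc]; exact h1)
  have hNp : IsPGroup p N := hP.to_le hNP
  haveI := hNn
  have hZn : (N ⊓ Subgroup.centralizer (N : Set G)).Normal := inferInstance
  have hZne : N ⊓ Subgroup.centralizer (N : Set G) ≠ ⊥ := by
    haveI : Nontrivial N := (Subgroup.nontrivial_iff_ne_bot N).mpr hNb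
    haveI := hNp.center_nontrivial
    obtain ⟨z, hz⟩ := exists_ne (1 : Subgroup.center N)
    intro hb
    have hzmem : ((z : N) : G) ∈ N ⊓ Subgroup.centralizer (N : Set G) := by
      refine Subgroup.mem_inf.mpr ⟨(z : N).2, ?_⟩
      rw [Subgroup.mem_centralizer_iff]
      intro h hh
      have h1 := Subgroup.mem_center_iff.mp z.2 ⟨h, hh⟩
      exact congrArg Subtype.val h1
    rw [hb, Subgroup.mem_bot] at hzmem
    apply hz
    ext
    exact hzmem
  have hZ : N ⊓ Subgroup.centralizer (N : Set G) = N :=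
    (hmin _ hZn inf_le_left).resolve_left hZne
  refine ⟨N, hNn, hNb, hNp, ?_, hmin⟩
  intro a ha b hb
  have h1 : b ∈ Subgroup.centralizer (N : Set G) := by
    rw [← hZ] at hb
    exact (Subgroup.mem_inf.mp hb).2
  exact Subgroup.mem_centralizer_iff.mp h1 a ha

/-- The centralizer of a normal subgroup of order `p` has index dividing `p - 1`. -/
theorem index_centralizer_dvd {G : Type*} [Group G] [Finite G] (p : ℕ) [Fact p.Prime]
    (N : Subgroup G) [N.Normal] (hN : Nat.card N = p) :
    (Subgroup.centralizer (N : Set G)).index ∣ p - 1 := by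
  have hp : p.Prime := Fact.out
  haveI : IsCyclic N := isCyclic_of_prime_card hN
  have h1 : (MulAut.conjNormal (H := N)).ker ≤ Subgroup.centralizer (N : Set G) := by
    intro g hg
    rw [MonoidHom.mem_ker] at hg
    rw [Subgroup.mem_centralizer_iff]
    intro h hh
    have h2 := congrArg (fun φ : MulAut N => ((φ ⟨h, hh⟩ : N) : G)) hg
    simp only [MulAut.conjNormal_apply, MulAut.one_apply] at h2
    calc h * g = (g * h * g⁻¹) * g := by rw [h2]
      _ = g * h := by group
  have h2 := Subgroup.index_dvd_of_le h1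
  rw [Subgroup.index_ker] at h2
  have h3 : Nat.card (MulAut.conjNormal (H := N)).range ∣ Nat.card (MulAut N) :=
    Subgroup.card_subgroup_dvd_card _
  have h4 : Nat.card (MulAut N) = p - 1 := by
    rw [IsCyclic.card_mulAut, hN, Nat.totient_prime hp]
  rw [h4] at h3
  exact h2.trans h3

/-- If `N` is a central `p`-subgroup of the normal subgroup `X` of `p'`-index in `X`, and `G` has
no nontrivial normal `p'`-subgroup, then `X = N`. -/
theorem le_of_central {G : Type*} [Group G] [Finite G] (p : ℕ) [Fact p.Prime]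
    (hO : ∀ R : Subgroup G, R.Normal → ¬ p ∣ Nat.card R → R = ⊥)
    (N : Subgroup G) [N.Normal] (hNp : IsPGroup p N)
    (X : Subgroup G) [X.Normal] (hXZ : X ≤ Subgroup.centralizer (N : Set G))
    (hidx : ¬ p ∣ N.relIndex X) : X ≤ N := by
  have hp : p.Prime := Fact.out
  have hcore : pPrimeCore p ↥X = ⊥ := by
    have hn := Cfsg.Agent.H14.pPrimeCore_subgroup_normal p X
    have hc : ¬ p ∣ Nat.card ((pPrimeCore p ↥X).map X.subtype) := by
      rw [Subgroup.card_map_of_injective X.subtype_injective]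
      exact (Nat.Prime.coprime_iff_not_dvd hp).mp (Cfsg.Agent.H80.pPrimeCore_coprime p ↥X).symm
    have h1 := hO _ hn hc
    exact (Subgroup.map_eq_bot_iff_of_injective _ X.subtype_injective).mp h1
  haveI hN'n : (N.subgroupOf X).Normal := inferInstance
  have hN'p : IsPGroup p (N.subgroupOf X) := hNp.comap_subtype
  obtain ⟨a, ha⟩ := IsPGroup.iff_card.mp hN'p
  have hcop : Nat.Coprime (Nat.card (N.subgroupOf X)) (N.subgroupOf X).index := by
    rw [ha]
    exact Nat.Coprime.pow_left a ((Nat.Prime.coprime_iff_not_dvd hp).mpr hidx)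
  obtain ⟨K0, hK0⟩ := Subgroup.exists_right_complement'_of_coprime hcop
  have hc : ∀ e ∈ N.subgroupOf X, ∀ g : ↥X, g * e = e * g := by
    intro e he g
    have h1 := Subgroup.mem_centralizer_iff.mp (hXZ g.2) (e : G) (Subgroup.mem_subgroupOf.mp he)
    exact Subtype.ext h1.symm
  have hK0n : K0.Normal := Cfsg.Agent.H80.normal_of_isComplement'_central _ K0 hc hK0
  have hK0card : Nat.card K0 = N.relIndex X := (hK0.symm.index_eq_card).symm
  have hK0le : K0 ≤ pPrimeCore p ↥X :=
    Cfsg.Agent.H80.le_pPrimeCore p K0 hK0n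
      (by rw [hK0card]; exact ((Nat.Prime.coprime_iff_not_dvd hp).mpr hidx).symm)
  rw [hcore, le_bot_iff] at hK0le
  rw [hK0le, Subgroup.card_bot] at hK0card
  exact Subgroup.relIndex_eq_one.mp hK0card.symm

theorem inf_relIndex_inf_dvd {G : Type*} [Group G] (Z A B : Subgroup G) [A.Normal]
    (hAB : A ≤ B) : (Z ⊓ A).relIndex (Z ⊓ B) ∣ A.relIndex B := by
  have h1 : Z ⊓ A = A ⊓ (Z ⊓ B) := by
    rw [inf_left_comm, inf_eq_left.mpr hAB]
  rw [h1, Subgroup.inf_relIndex_right]
  exact Cfsg.Agent.H80.relIndex_dvd_relIndex_of_normal A inf_le_right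


/-- The case `|N| = p`. -/
theorem case_b {G : Type*} [Group G] [Finite G] (p : ℕ) [Fact p.Prime]
    (hO : ∀ R : Subgroup G, R.Normal → ¬ p ∣ Nat.card R → R = ⊥)
    (N : Subgroup G) [N.Normal] (hNcard : Nat.card N = p)
    (h : Shape p N) : Shape p (⊥ : Subgroup G) := by
  have hp : p.Prime := Fact.out
  obtain ⟨A, B, C, D, hA, hB, hC, hD, hNA, hAB, hBC, hCD, h1, ⟨k2, h2⟩, h3, ⟨k4, h4⟩, h5, h6⟩ := h
  haveI := hA; haveI := hB; haveI := hC; haveI := hD
  have hNp : IsPGroup p N := IsPGroup.iff_card.mpr ⟨1, by rw [hNcard, pow_one]⟩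
  obtain ⟨Z, hZ⟩ : ∃ Z : Subgroup G, Z = Subgroup.centralizer (N : Set G) := ⟨_, rfl⟩
  haveI hZn : Z.Normal := by rw [hZ]; infer_instance
  have hZidx : Z.index ∣ p - 1 := by rw [hZ]; exact index_centralizer_dvd p N hNcard
  have hNZ : N ≤ Z := by
    haveI : IsCyclic N := isCyclic_of_prime_card hNcard
    intro x hx
    rw [hZ, Subgroup.mem_centralizer_iff]
    intro y hy
    letI := IsCyclic.commGroup (α := N)
    have h7 : (⟨y, hy⟩ : N) * ⟨x, hx⟩ = ⟨x, hx⟩ * ⟨y, hy⟩ := mul_comm _ _
    exact congrArg Subtype.val h7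
  have hZA : Z ⊓ A = N := by
    apply le_antisymm
    · apply le_of_central p hO N hNp (Z ⊓ A) (by rw [← hZ]; exact inf_le_left)
      intro hd
      exact h1 (hd.trans (Cfsg.Agent.H80.relIndex_dvd_relIndex_of_normal N inf_le_right))
    · exact le_inf hNZ hNA
  have hpm : ¬ p ∣ p - 1 := by
    have h7 : 0 < p - 1 := by have := hp.two_le; omega
    exact Nat.not_dvd_of_pos_of_lt h7 (by omega)
  refine ⟨⊥, Z ⊓ B, Z ⊓ C, Z ⊓ D, inferInstance, inferInstance, inferInstance, inferInstance,
    le_rfl, bot_le, inf_le_inf_left Z hBC, inf_le_inf_left Z hCD, ?_, ?_, ?_, ?_, ?_, ?_⟩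
  · rw [Subgroup.relIndex_self]; exact hp.not_dvd_one
  · have h7 := inf_relIndex_inf_dvd Z A B hAB
    rw [h2] at h7
    obtain ⟨j, -, hj⟩ := (Nat.dvd_prime_pow hp).mp h7
    refine ⟨1 + j, ?_⟩
    rw [Subgroup.relIndex_bot_left,
      Cfsg.Agent.H80.card_eq_card_mul_relIndex (inf_le_inf_left Z hAB), hj, hZA, hNcard, pow_add,
      pow_one]
  · intro hd
    exact h3 (hd.trans (inf_relIndex_inf_dvd Z B C hBC))
  · have h7 := inf_relIndex_inf_dvd Z C D hCD
    rw [h4] at h7
    obtain ⟨j, -, hj⟩ := (Nat.dvd_prime_pow hp).mp h7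
    exact ⟨j, hj⟩
  · rw [← Subgroup.relIndex_mul_index (inf_le_right : Z ⊓ D ≤ D), Subgroup.inf_relIndex_right]
    intro hd
    rcases (Nat.Prime.dvd_mul hp).mp hd with h7 | h7
    · exact hpm (h7.trans ((Subgroup.relIndex_dvd_index_of_normal Z D).trans hZidx))
    · exact h5 h7
  · intro h2'
    rw [h6 h2', inf_top_eq]
    have h7 : Z.index = 1 := by
      rw [h2'] at hZidx
      exact Nat.dvd_one.mp hZidx
    exact Subgroup.index_eq_one.mp h7

/-- The case `|N| ≠ p`, `A ≠ N`. -/
theorem case_c {G : Type*} [Group G] [Finite G] (p : ℕ) [Fact p.Prime]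
    (hmax : MaxHyp p G)
    (hO : ∀ R : Subgroup G, R.Normal → ¬ p ∣ Nat.card R → R = ⊥)
    (N : Subgroup G) [N.Normal] (hNp : IsPGroup p N) (hNab : ∀ a ∈ N, ∀ b ∈ N, a * b = b * a)
    (hmin : ∀ M : Subgroup G, M.Normal → M ≤ N → M = ⊥ ∨ M = N)
    (hNcard : Nat.card N ≠ p)
    (A : Subgroup G) [A.Normal] (hNA : N ≤ A) (hne : ¬ A ≤ N) (hidx : ¬ p ∣ N.relIndex A) :
    Shape p (⊥ : Subgroup G) := by
  have hp : p.Prime := Fact.out
  haveI hN'n : (N.subgroupOf A).Normal := inferInstance
  have hN'p : IsPGroup p (N.subgroupOf A) := hNp.comap_subtype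
  obtain ⟨a, ha⟩ := IsPGroup.iff_card.mp hN'p
  obtain ⟨a', ha'⟩ := IsPGroup.iff_card.mp hNp
  have hcop : Nat.Coprime (Nat.card (N.subgroupOf A)) (N.subgroupOf A).index := by
    rw [ha]
    exact Nat.Coprime.pow_left a ((Nat.Prime.coprime_iff_not_dvd hp).mpr hidx)
  obtain ⟨K0, hK0⟩ := Subgroup.exists_right_complement'_of_coprime hcop
  obtain ⟨K, hK⟩ : ∃ K : Subgroup G, K = K0.map A.subtype := ⟨_, rfl⟩
  have hKcard : Nat.card K = N.relIndex A := by
    rw [hK, Subgroup.card_map_of_injective A.subtype_injective]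
    exact (hK0.symm.index_eq_card).symm
  have hKne : K ≠ ⊥ := by
    intro hb
    rw [hb, Subgroup.card_bot] at hKcard
    exact hne (Subgroup.relIndex_eq_one.mp hKcard.symm)
  have hKnn : ¬ K.Normal := by
    intro hn
    exact hKne (hO K hn (by rw [hKcard]; exact hidx))
  have hfrat : ∀ l : G, ∃ q ∈ N, q⁻¹ * l ∈ Subgroup.normalizer (K : Set G) := by
    intro l
    have h1 := Cfsg.Agent.H3.conj_complement_step A N hNA hNab hcop K0 hK0 l
      (fun r hr => Subgroup.Normal.conj_mem inferInstance r hr l)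
    rw [hK]; exact h1
  have hnt : Subgroup.normalizer (K : Set G) ≠ ⊤ :=
    fun h => hKnn (Subgroup.normalizer_eq_top_iff.mp h)
  obtain ⟨M, hMco, hKM⟩ :=
    (eq_top_or_exists_le_coatom (Subgroup.normalizer (K : Set G))).resolve_left hnt
  have hdec : ∀ l : G, ∃ q ∈ N, ∃ m ∈ M, l = q * m := by
    intro l
    obtain ⟨q, hq, hql⟩ := hfrat l
    exact ⟨q, hq, q⁻¹ * l, hKM hql, by group⟩
  rcases hmax M hMco with ⟨Q, hQn, hQc, k, hQi⟩ | hprime
  · -- `M` has a normal `p`-complement
    have hsurj := QuotientGroup.mk'_surjective N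
    obtain ⟨ψ, hψ⟩ : ∃ ψ : ↥M →* G ⧸ N, Function.Surjective ψ := by
      refine ⟨(QuotientGroup.mk' N).comp M.subtype, ?_⟩
      intro y
      obtain ⟨l, rfl⟩ := hsurj y
      obtain ⟨q, hq, m, hm, rfl⟩ := hdec l
      refine ⟨⟨m, hm⟩, ?_⟩
      simp only [MonoidHom.comp_apply, Subgroup.coe_subtype, QuotientGroup.mk'_apply]
      rw [QuotientGroup.mk_mul, (QuotientGroup.eq_one_iff q).mpr hq, one_mul]
    have hTn : (Q.map ψ).Normal := hQn.map ψ hψ
    have hN : N = (⊥ : Subgroup (G ⧸ N)).comap (QuotientGroup.mk' N) := by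
      rw [MonoidHom.comap_bot, QuotientGroup.ker_mk']
    have hrel : ∀ X Y : Subgroup (G ⧸ N),
        (X.comap (QuotientGroup.mk' N)).relIndex (Y.comap (QuotientGroup.mk' N)) =
          X.relIndex Y := by
      intro X Y
      rw [Subgroup.relIndex_comap, Subgroup.map_comap_eq_self_of_surjective hsurj]
    refine ⟨⊥, N, (Q.map ψ).comap (QuotientGroup.mk' N), ⊤, inferInstance, inferInstance,
      hTn.comap _, inferInstance, le_rfl, bot_le, ?_, le_top, ?_, ?_, ?_, ?_, ?_, fun _ => rfl⟩
    · conv_lhs => rw [hN]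
      exact Subgroup.comap_mono bot_le
    · rw [Subgroup.relIndex_self]; exact hp.not_dvd_one
    · exact ⟨a', by rw [Subgroup.relIndex_bot_left, ha']⟩
    · conv => enter [1, 2, 1]; rw [hN]
      rw [hrel, Subgroup.relIndex_bot_left]
      intro hd
      exact hQc (hd.trans (Subgroup.card_map_dvd Q ψ))
    · rw [Subgroup.relIndex_top_right, Subgroup.index_comap_of_surjective _ hsurj]
      have h5 := Subgroup.index_map_dvd Q hψ
      rw [hQi] at h5
      obtain ⟨j, -, hj⟩ := (Nat.dvd_prime_pow hp).mp h5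
      exact ⟨j, hj⟩
    · rw [Subgroup.index_top]; exact hp.not_dvd_one
  · -- `M` has prime index: impossible
    exfalso
    have hNM : (N ⊓ M).Normal := by
      constructor
      intro x hx g
      obtain ⟨q, hq, m, hm, rfl⟩ := hdec g
      have hxN := (Subgroup.mem_inf.mp hx).1
      have hxM := (Subgroup.mem_inf.mp hx).2
      have h1 : m * x * m⁻¹ ∈ N := Subgroup.Normal.conj_mem inferInstance x hxN m
      have h2 : m * x * m⁻¹ ∈ M := M.mul_mem (M.mul_mem hm hxM) (M.inv_mem hm)
      have h3 : q * m * x * (q * m)⁻¹ = m * x * m⁻¹ := by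
        have h4 := hNab q hq (m * x * m⁻¹) h1
        calc q * m * x * (q * m)⁻¹ = q * (m * x * m⁻¹) * q⁻¹ := by group
          _ = (m * x * m⁻¹) * q * q⁻¹ := by rw [h4]
          _ = m * x * m⁻¹ := by group
      rw [h3]
      exact Subgroup.mem_inf.mpr ⟨h1, h2⟩
    rcases hmin _ hNM inf_le_left with hbot | hN
    · have hsup : M ⊔ N = ⊤ := by
        rw [eq_top_iff]
        intro l _
        obtain ⟨q, hq, m, hm, rfl⟩ := hdec l
        exact Subgroup.mul_mem _ (Subgroup.mem_sup_right hq) (Subgroup.mem_sup_left hm)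
      have h1 : N.index = Nat.card M := by
        rw [← Subgroup.relIndex_top_right, ← hsup, Subgroup.relIndex_sup_right,
          ← Subgroup.inf_relIndex_left, inf_comm, hbot, Subgroup.relIndex_bot_left]
      have h2 := Subgroup.card_mul_index N
      have h3 := Subgroup.card_mul_index M
      have h4 : M.index = Nat.card N := by
        have h5 : Nat.card M * M.index = Nat.card M * Nat.card N := by
          rw [h3, ← h2, h1, mul_comm]
        exact Nat.eq_of_mul_eq_mul_left Nat.card_pos h5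
      rw [h4] at hprime
      have h5 : p ∣ Nat.card N := by
        rw [ha']
        have h6 : a' ≠ 0 := by
          intro h0
          rw [ha', h0, pow_zero] at hprime
          exact Nat.not_prime_one hprime
        exact dvd_pow_self p h6
      exact hNcard ((Nat.prime_dvd_prime_iff_eq hp hprime).mp h5).symm
    · have hNM' : N ≤ M := by rw [← hN]; exact inf_le_right
      apply hMco.1
      rw [eq_top_iff]
      intro l _
      obtain ⟨q, hq, m, hm, rfl⟩ := hdec l
      exact M.mul_mem (hNM' hq) hm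

/-- The main theorem. -/
theorem main (p : ℕ) [Fact p.Prime] : ∀ (n : ℕ) (G : Type u) [Group G] [Finite G],
    Nat.card G = n → IsPSolvable p G → MaxHyp p G → Shape p (⊥ : Subgroup G) := by
  intro n
  induction n using Nat.strong_induction_on with
  | _ n ih =>
    intro G _ _ hn hps hmax
    have hp : p.Prime := Fact.out
    by_cases hR : ∃ R : Subgroup G, R.Normal ∧ ¬ p ∣ Nat.card R ∧ R ≠ ⊥
    · obtain ⟨R, hRn, hRc, hRb⟩ := hR
      haveI := hRn
      have hlt : Nat.card (G ⧸ R) < n := by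
        have h1 := Subgroup.card_eq_card_quotient_mul_card_subgroup R
        have h2 : 1 < Nat.card R := (Subgroup.one_lt_card_iff_ne_bot R).mpr hRb
        have h3 : 0 < Nat.card (G ⧸ R) := Nat.card_pos
        rw [← hn, h1]
        nlinarith
      have h4 := ih _ hlt (G ⧸ R) rfl (Cfsg.Agent.H80.isPSolvable_quotient p R hps)
        (maxHyp_quotient p R hmax)
      obtain ⟨A, B, C, D, hA, hB, hC, hD, hRA, hAB, hBC, hCD, h1, h2, h3, h5, h6, h7⟩ :=
        shape_of_quotient p R h4
      refine ⟨A, B, C, D, hA, hB, hC, hD, bot_le, hAB, hBC, hCD, ?_, h2, h3, h5, h6, h7⟩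
      rw [Subgroup.relIndex_bot_left, Cfsg.Agent.H80.card_eq_card_mul_relIndex hRA]
      intro hd
      rcases (Nat.Prime.dvd_mul hp).mp hd with h | h
      · exact hRc h
      · exact h1 h
    · have hO : ∀ R : Subgroup G, R.Normal → ¬ p ∣ Nat.card R → R = ⊥ := by
        intro R hRn hRc
        by_contra hb
        exact hR ⟨R, hRn, hRc, hb⟩
      by_cases htriv : Subsingleton G
      · have hbt : (⊥ : Subgroup G) = ⊤ := Subsingleton.elim _ _
        refine ⟨⊤, ⊤, ⊤, ⊤, inferInstance, inferInstance, inferInstance, inferInstance, bot_le,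
          le_rfl, le_rfl, le_rfl, ?_, ⟨0, ?_⟩, ?_, ⟨0, ?_⟩, ?_, fun _ => rfl⟩
        · rw [hbt, Subgroup.relIndex_self]; exact hp.not_dvd_one
        · rw [Subgroup.relIndex_self, pow_zero]
        · rw [Subgroup.relIndex_self]; exact hp.not_dvd_one
        · rw [Subgroup.relIndex_self, pow_zero]
        · rw [Subgroup.index_top]; exact hp.not_dvd_one
      · haveI : Nontrivial G := not_subsingleton_iff_nontrivial.mp htriv
        have hcore : pPrimeCore p G = ⊥ :=
          hO _ (Cfsg.Agent.H80.pPrimeCore_normal p G)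
            ((Nat.Prime.coprime_iff_not_dvd hp).mp (Cfsg.Agent.H80.pPrimeCore_coprime p G).symm)
        have hcent := Cfsg.Agent.H80.centralizer_pCore_le p hps hcore
        have hPne : pCore p G ≠ ⊥ := by
          intro hb
          rw [hb] at hcent
          have h1 : (⊤ : Subgroup G) ≤ ⊥ := by
            intro x _
            apply hcent
            rw [Subgroup.mem_centralizer_iff]
            intro h hh
            have h2 : h = 1 := Subgroup.mem_bot.mp hh
            rw [h2, one_mul, mul_one]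
          exact top_ne_bot (le_bot_iff.mp h1)
        obtain ⟨N, hNn, hNb, hNp, hNab, hmin⟩ :=
          exists_min_normal p (pCore p G) (Cfsg.Agent.H80.pCore_normal p G)
            (Cfsg.Agent.H80.pCore_isPGroup p G) hPne
        haveI := hNn
        have hlt : Nat.card (G ⧸ N) < n := by
          have h1 := Subgroup.card_eq_card_quotient_mul_card_subgroup N
          have h2 : 1 < Nat.card N := (Subgroup.one_lt_card_iff_ne_bot N).mpr hNb
          have h3 : 0 < Nat.card (G ⧸ N) := Nat.card_pos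
          rw [← hn, h1]
          nlinarith
        have h4 := ih _ hlt (G ⧸ N) rfl (Cfsg.Agent.H80.isPSolvable_quotient p N hps)
          (maxHyp_quotient p N hmax)
        have h5 := shape_of_quotient p N h4
        by_cases hNc : Nat.card N = p
        · exact case_b p hO N hNc h5
        · obtain ⟨A, B, C, D, hA, hB, hC, hD, hNA, hAB, hBC, hCD, h1, h2, h3, h6, h7, h8⟩ := h5
          by_cases hAN : A ≤ N
          · have hAeq : A = N := le_antisymm hAN hNA
            obtain ⟨k, hk⟩ := h2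
            obtain ⟨a, ha⟩ := IsPGroup.iff_card.mp hNp
            refine ⟨⊥, B, C, D, inferInstance, hB, hC, hD, le_rfl, bot_le, hBC, hCD, ?_,
              ⟨a + k, ?_⟩, h3, h6, h7, h8⟩
            · rw [Subgroup.relIndex_self]; exact hp.not_dvd_one
            · rw [Subgroup.relIndex_bot_left, Cfsg.Agent.H80.card_eq_card_mul_relIndex hAB, hk,
                hAeq, ha, pow_add]
          · haveI := hA
            exact case_c p hmax hO N hNp hNab hmin hNc A hNA hAN h1

end Cfsg.Agent.H13.PLen
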