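-- S4025 team project (helper13): from the group `G` to the abstract setting on `N_G(P)`.
import Mathlib
import Cfsg.Agent.H13.SaDefs

set_option autoImplicit false

namespace Cfsg.Agent.H13.Sa

open Cfsg

universe u

theorem final (hFus : FusStmt.{u}) (hMain : MainStmt.{u}) {G : Type u} [Group G] [Finite G]
    {p : ℕ} [Fact p.Prime] (hC : ∀ H K : Subgroup G, IsPGroup p H → IsPGroup p K →
      Nat.card H = Nat.card K → ∃ g : G, K = H.map (MulAut.conj g).toMonoidHom) (P : Sylow p G)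
    (n : ℕ) (hn : 3 ≤ n)
    (hel : Cfsg.IsElementaryAbelian p (P : Subgroup G)) (hcard : Nat.card P = p ^ n)
    (N : Subgroup G) (hN : N = Subgroup.normalizer ((P : Subgroup G) : Set G))
    (hsolv : Group.IsSolvable (↥N ⧸ Cfsg.pPrimeCore p ↥N)) :
    (n = 3 ∧ (∃ f : ↥N ⧸ Cfsg.pPrimeCore p ↥N →* ↥(Cfsg.semiaffineGroup (GaloisField p 3)),
        Function.Injective f) ∧
      (p = 2 → Nonempty (↥N ⧸ Cfsg.pPrimeCore p ↥N ≃* Cfsg.semiaffineGroup (GaloisField 2 3)) ∨
               Nonempty (↥N ⧸ Cfsg.pPrimeCore p ↥N ≃* Cfsg.affineGroup (GaloisField 2 3)))) ∨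
    (n = 5 ∧ p = 2 ∧
      Nonempty (↥N ⧸ Cfsg.pPrimeCore p ↥N ≃* Cfsg.semiaffineGroup (GaloisField 2 5))) := by
  subst hN
  obtain ⟨N, hN⟩ : ∃ N : Subgroup G, N = Subgroup.normalizer ((P : Subgroup G) : Set G) := ⟨_, rfl⟩
  rw [← hN] at hsolv ⊢
  have hPN : (P : Subgroup G) ≤ N := hN ▸ Subgroup.le_normalizer
  obtain ⟨Q, hQ⟩ : ∃ Q : Subgroup N, Q = (P : Subgroup G).subgroupOf N := ⟨_, rfl⟩
  have hQn : Q.Normal := by
    rw [hQ, hN]; exact Subgroup.normal_in_normalizer
  have hmem : ∀ a : N, a ∈ Q ↔ (a : G) ∈ (P : Subgroup G) := by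
    intro a; rw [hQ, Subgroup.mem_subgroupOf]
  have habP : ∀ a ∈ (P : Subgroup G), ∀ b ∈ (P : Subgroup G), a * b = b * a := by
    intro a ha b hb
    have h := hel.1.is_comm.comm (⟨a, ha⟩ : (P : Subgroup G)) ⟨b, hb⟩
    exact congrArg Subtype.val h
  have hab : ∀ a ∈ Q, ∀ b ∈ Q, a * b = b * a := by
    intro a ha b hb
    exact Subtype.ext (habP a ((hmem a).mp ha) b ((hmem b).mp hb))
  have hexp : ∀ a ∈ Q, a ^ p = 1 := by
    intro a ha
    exact Subtype.ext (by simpa using hel.2 a ((hmem a).mp ha))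
  have hcardQ : Nat.card Q = p ^ n := by
    rw [← hcard, hQ]; exact Nat.card_congr (Subgroup.subgroupOfEquivOfLe hPN).toEquiv
  have hidx : ¬ p ∣ Q.index := by
    intro h
    have h2 : (P : Subgroup G).relIndex N ∣ (P : Subgroup G).index :=
      Subgroup.relIndex_dvd_index_of_le hPN
    have h1 : Q.index = (P : Subgroup G).relIndex N := by rw [hQ]; rfl
    exact P.not_dvd_index (dvd_trans (h1 ▸ h) h2)
  have htr : ∀ A B : Subgroup N, A ≤ Q → B ≤ Q → Nat.card A = Nat.card B →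
      ∃ g : N, B = A.map (MulAut.conj g).toMonoidHom := by
    intro A B hA hB hAB
    have hA' : A.map N.subtype ≤ (P : Subgroup G) := by
      rintro _ ⟨x, hx, rfl⟩; exact (hmem x).mp (hA hx)
    have hB' : B.map N.subtype ≤ (P : Subgroup G) := by
      rintro _ ⟨x, hx, rfl⟩; exact (hmem x).mp (hB hx)
    have hc : Nat.card (A.map N.subtype) = Nat.card (B.map N.subtype) := by
      rw [Subgroup.card_map_of_injective N.subtype_injective,
        Subgroup.card_map_of_injective N.subtype_injective, hAB]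
    obtain ⟨g, hg, hgB⟩ := hFus hC P habP _ _ hA' hB' hc
    rw [← hN] at hg
    refine ⟨⟨g, hg⟩, ?_⟩
    apply Subgroup.map_injective N.subtype_injective
    rw [hgB, Subgroup.map_map, Subgroup.map_map]
    congr 1
  exact hMain Q n hn hab hexp hcardQ hidx hsolv htr

end Cfsg.Agent.H13.Sa
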