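-- S4025 team project (helper13): piece HUPPROJ — Huppert's theorem for projectively transitive actions.
import Mathlib
import Cfsg.Agent.H13.SaDefs
import Cfsg.Agent.S3360

set_option autoImplicit false

namespace Cfsg.Agent.H13.Sa

open Cfsg

universe u v

theorem hupProj : HupProjStmt.{u, v} := by
  intro q _ V _ _ _ _ G _ _ hsol ρ htrans
  have hsm : ∀ (c : (ZMod q)ˣ) (v : V),
      (LinearEquiv.smulOfUnit c : V ≃ₗ[ZMod q] V) v = (c : ZMod q) • v := fun c v => rfl
  obtain ⟨ψ, hψ⟩ : ∃ ψ : G × (ZMod q)ˣ →* (V ≃ₗ[ZMod q] V),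
      ∀ (g : G) (c : (ZMod q)ˣ) (v : V), ψ (g, c) v = (c : ZMod q) • ρ g v := by
    refine ⟨MonoidHom.mk' (fun x => ρ x.1 * LinearEquiv.smulOfUnit x.2) ?_, ?_⟩
    · rintro ⟨g, c⟩ ⟨g', c'⟩
      ext v
      simp only [Prod.mk_mul_mk, map_mul, LinearEquiv.mul_apply, hsm,
        map_smul, Units.val_mul, mul_smul]
      rw [smul_comm]
    · intro g c v
      simp only [MonoidHom.mk'_apply, LinearEquiv.mul_apply, hsm,
        map_smul]
  have hsolP : Group.IsSolvable (G × (ZMod q)ˣ) := inferInstance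
  have hsolR : Group.IsSolvable ψ.range :=
    Group.isSolvable_of_surjective ψ.rangeRestrict_surjective
  have hfinR : Finite ψ.range := Finite.of_surjective ψ.rangeRestrict ψ.rangeRestrict_surjective
  have htr' : ∀ v w : V, v ≠ 0 → w ≠ 0 → ∃ g : ψ.range, ψ.range.subtype g v = w := by
    intro v w hv hw
    obtain ⟨g, c, hc, hg⟩ := htrans v w hv hw
    refine ⟨⟨ψ (g, (Units.mk0 c hc)⁻¹), ⟨_, rfl⟩⟩, ?_⟩
    simp only [Subgroup.coe_subtype]
    rw [hψ, hg, smul_smul]
    simp [hc]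
  rcases Cfsg.Agent.S3360.result q hsolR ψ.range.subtype Subtype.val_injective htr' with
    ⟨F, i1, i2, e, he⟩ | h
  · left
    refine ⟨F, i1, i2, e, fun g => ?_⟩
    obtain ⟨a, σ, h⟩ := he ⟨ψ (g, 1), ⟨_, rfl⟩⟩
    refine ⟨a, σ, fun v => ?_⟩
    have := h v
    simp only [Subgroup.coe_subtype] at this
    rw [hψ] at this
    simpa using this
  · exact Or.inr h

end Cfsg.Agent.H13.Sa
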