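-- S4025 team project (helper13): assembly of the pieces.
import Mathlib
import Cfsg.Agent.H13.SaDefs

set_option autoImplicit false

namespace Cfsg.Agent.H13.Sa

open Cfsg

universe u

theorem main (hCompl : ComplStmt.{u}) (hIdx : IdxStmt.{u}) (hField : FieldStmt.{u})
    (hNo65 : No65Stmt.{u, u}) (hC1 : Count1Stmt.{u}) (hC2 : Count2Stmt.{u}) (hOrb : OrbStmt.{u})
    (hNum : NumStmt) (hBound : BoundStmt.{u}) (hEmb : EmbStmt.{u}) (hTrans : TransStmt)
    (hP2 : P2Stmt.{u}) (hP5 : P5Stmt.{u}) : MainStmt.{u} := by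
  intro N _ _ p _ Q _ n hn hab hexp hcard hidx hsol htr
  have hp : p.Prime := Fact.out
  have hQp : IsPGroup p Q := IsPGroup.of_card hcard
  obtain ⟨hKC, hKidx⟩ := hIdx Q hQp hidx hab
  have h1 := hC1 Q p n hab hexp hcard
  have h2 := hC2 Q p n hab hexp hcard
  obtain ⟨C, hCdef⟩ : ∃ C : Subgroup N, C = (MulAut.conjNormal : N →* MulAut Q).ker := ⟨_, rfl⟩
  have hCn : C.Normal := by rw [hCdef]; infer_instance
  rw [← hCdef] at hKC hKidx
  have hCnorm : ∀ g ∈ C, ∀ A : Subgroup N, A ≤ Q → A.map (MulAut.conj g).toMonoidHom = A := by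
    intro g hg A hA
    have hg' : ∀ q : Q, g * q * g⁻¹ = q := by
      intro q
      rw [hCdef] at hg
      have := congrArg (fun φ : MulAut Q => ((φ q : Q) : N)) (MonoidHom.mem_ker.mp hg)
      simpa using this
    ext x
    simp only [Subgroup.mem_map, MulEquiv.coe_toMonoidHom, MulAut.conj_apply]
    constructor
    · rintro ⟨y, hy, rfl⟩
      have := hg' ⟨y, hA hy⟩
      simp only at this
      rw [this]; exact hy
    · intro hx
      exact ⟨x, hx, hg' ⟨x, hA hx⟩⟩
  have hp2 : 2 ≤ p := hp.two_le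
  have hpn : p ^ 3 ≤ p ^ n := Nat.pow_le_pow_right hp.pos hn
  have hp3 : p * p ≤ p ^ 3 := by nlinarith [hp.two_le]
  have hpp : p < p * p := by nlinarith
  have hne1 : ∃ A : Subgroup N, A ≤ Q ∧ Nat.card A = p := by
    by_contra hcon
    have : IsEmpty {A : Subgroup N // A ≤ Q ∧ Nat.card A = p} := ⟨fun A => hcon ⟨A.1, A.2⟩⟩
    rw [Nat.card_of_isEmpty, zero_mul] at h1
    omega
  have hne2 : ∃ A : Subgroup N, A ≤ Q ∧ Nat.card A = p ^ 2 := by
    by_contra hcon
    have : IsEmpty {A : Subgroup N // A ≤ Q ∧ Nat.card A = p ^ 2} := ⟨fun A => hcon ⟨A.1, A.2⟩⟩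
    rw [Nat.card_of_isEmpty, zero_mul] at h2
    have ha : 0 < p ^ n - 1 := by omega
    have hb : 0 < p ^ n - p := by omega
    have := Nat.mul_pos ha hb
    omega
  have htr1 : ∀ A B : Subgroup N, A ≤ Q → B ≤ Q → Nat.card A = p → Nat.card B = p →
      ∃ g : N, B = A.map (MulAut.conj g).toMonoidHom :=
    fun A B hA hB h1 h2 => htr A B hA hB (h1.trans h2.symm)
  have htr2 : ∀ A B : Subgroup N, A ≤ Q → B ≤ Q → Nat.card A = p ^ 2 → Nat.card B = p ^ 2 →
      ∃ g : N, B = A.map (MulAut.conj g).toMonoidHom :=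
    fun A B hA hB h1 h2 => htr A B hA hB (h1.trans h2.symm)
  have hdC1 := hOrb Q C p htr1 hCnorm hne1
  have hdC2 := hOrb Q C (p ^ 2) htr2 hCnorm hne2
  have hcardNK : Nat.card (N ⧸ pPrimeCore p N) = p ^ n * C.index := by
    rw [← Subgroup.index_eq_card, hKidx, hcard]
  rcases hField Q n hn hab hexp hcard (pPrimeCore p N) (hCdef ▸ hKC) hsol htr1 with
    ⟨F, _, _, e, hsemi⟩ | h81
  · have hF : Nat.card F = p ^ n := by
      rw [← hcard]; exact (Nat.card_congr (Additive.ofMul.trans e.toEquiv)).symm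
    obtain ⟨M, hMn, hMA, hMle⟩ := hBound Q n hF e hsemi
    have := hMn
    have hd1 := hOrb Q M p htr1 hMA hne1
    have hd2 := hOrb Q M (p ^ 2) htr2 hMA hne2
    have hMpos : 0 < M.index := Nat.pos_of_ne_zero Subgroup.index_ne_zero_of_finite
    have hnum := hNum p n M.index _ _ hp hn h1 h2 hd1 hd2 hMpos hMle
    obtain ⟨H, hc, hcore⟩ := hCompl Q hQp hidx
    obtain ⟨f, hfker, hfS⟩ := hEmb Q H hc e hsemi
    obtain ⟨f', hf'⟩ : ∃ f' : N →* semiaffineGroup F, ∀ g, (f' g : Equiv.Perm F) = f g :=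
      ⟨f.codRestrict _ hfS, fun g => rfl⟩
    have hf'ker : f'.ker = pPrimeCore p N := by
      rw [← hcore, ← hfker]
      ext g
      rw [MonoidHom.mem_ker, MonoidHom.mem_ker, ← hf', Subtype.ext_iff]
      rfl
    obtain ⟨fbar, hfbar⟩ : ∃ fbar : N ⧸ pPrimeCore p N →* semiaffineGroup F,
        Function.Injective fbar := by
      refine ⟨QuotientGroup.lift (pPrimeCore p N) f' (fun x hx => by rw [← hf'ker] at hx; exact hx),
        ?_⟩
      rw [← MonoidHom.ker_eq_bot_iff, eq_bot_iff]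
      intro x hx
      induction x using QuotientGroup.induction_on with
      | H x =>
        rw [MonoidHom.mem_ker, QuotientGroup.lift_mk] at hx
        rw [Subgroup.mem_bot, QuotientGroup.eq_one_iff, ← hf'ker]
        exact hx
    obtain ⟨⟨τS⟩, ⟨τA⟩⟩ := hTrans p n hF
    rcases hnum with rfl | ⟨rfl, rfl⟩
    · left
      refine ⟨rfl, ⟨τS.toMonoidHom.comp fbar, τS.injective.comp hfbar⟩, ?_⟩
      rintro rfl
      have hX1 : Nat.card {A : Subgroup N // A ≤ Q ∧ Nat.card A = 2} = 7 := by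
        norm_num at h1; omega
      have h56 : 56 ∣ Nat.card (N ⧸ pPrimeCore 2 N) := by
        rw [hcardNK]; rw [hX1] at hdC1
        exact Nat.mul_dvd_mul_left 8 hdC1
      rcases hP2 (by simpa using hF) fbar hfbar h56 with ⟨⟨i⟩⟩ | ⟨⟨i⟩⟩
      · exact Or.inl ⟨i.trans τS⟩
      · exact Or.inr ⟨i.trans τA⟩
    · right
      refine ⟨rfl, rfl, ?_⟩
      have hX2 : Nat.card {A : Subgroup N // A ≤ Q ∧ Nat.card A = 2 ^ 2} = 155 := by
        have h2' : Nat.card {A : Subgroup N // A ≤ Q ∧ Nat.card A = 2 ^ 2} * 6 = 930 := by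
          rw [show (930 : ℕ) = (2 ^ 5 - 1) * (2 ^ 5 - 2) by norm_num, ← h2]; norm_num
        omega
      have h4960 : 4960 ∣ Nat.card (N ⧸ pPrimeCore 2 N) := by
        rw [hcardNK]; rw [hX2] at hdC2
        exact Nat.mul_dvd_mul_left 32 hdC2
      obtain ⟨i⟩ := hP5 (by simpa using hF) fbar hfbar h4960
      exact ⟨i.trans τS⟩
  · exfalso
    rw [hcard] at h81
    have hp3 : p = 3 := by
      have h3 : p ∣ 3 ^ 4 := by
        rw [show (3 : ℕ) ^ 4 = 81 by norm_num, ← h81]
        exact dvd_pow_self p (by omega)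
      exact (Nat.prime_dvd_prime_iff_eq hp Nat.prime_three).mp (hp.dvd_of_dvd_pow h3)
    subst hp3
    have hn4 : n = 4 := Nat.pow_right_injective (by norm_num : 2 ≤ 3) (by simpa using h81)
    subst hn4
    have hX1 : Nat.card {A : Subgroup N // A ≤ Q ∧ Nat.card A = 3} = 40 := by
      norm_num at h1; omega
    have hX2 : Nat.card {A : Subgroup N // A ≤ Q ∧ Nat.card A = 3 ^ 2} = 130 := by
      have h2' : Nat.card {A : Subgroup N // A ≤ Q ∧ Nat.card A = 3 ^ 2} * 48 = 6240 := by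
        rw [show (6240 : ℕ) = (3 ^ 4 - 1) * (3 ^ 4 - 3) by norm_num, ← h2]; norm_num
      omega
    rw [hX1] at hdC1
    rw [hX2] at hdC2
    have h65 : 65 ∣ C.index :=
      Nat.Coprime.mul_dvd_of_dvd_of_dvd (by norm_num : Nat.Coprime 5 13)
        (dvd_trans ⟨8, by norm_num⟩ hdC1) (dvd_trans ⟨10, by norm_num⟩ hdC2)
    obtain ⟨φ, hφ⟩ : ∃ φ : N →* MulAut Q, φ = MulAut.conjNormal := ⟨_, rfl⟩
    rw [← hφ] at hCdef
    have hsolY : Group.IsSolvable φ.range := by
      have hsurj : Function.Surjective (QuotientGroup.lift (pPrimeCore 3 N) φ.rangeRestrict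
          (fun x hx => by
            have := hKC hx
            rw [hCdef, MonoidHom.mem_ker] at this
            exact Subtype.ext this)) := by
        rintro ⟨y, x, rfl⟩
        exact ⟨(x : N ⧸ pPrimeCore 3 N), rfl⟩
      exact Group.isSolvable_of_surjective hsurj
    have hcardY : Nat.card φ.range = C.index := by rw [hCdef]; exact (Subgroup.index_ker φ).symm
    have hQ81 : Nat.card Q = 81 := by rw [hcard]; norm_num
    exact hNo65 hsolY hQ81 φ.range.subtype Subtype.val_injective (hcardY ▸ h65)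

end Cfsg.Agent.H13.Sa
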