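import Mathlib
import Cfsg.Agent.H64.TmDefs
import Cfsg.Agent.H4.IrrCount
import Cfsg.Agent.H82.Irr
import Cfsg.Agent.H91.TnInv

/-!
# S3701 (helper64's TM project), piece TM-INV (helper13): the pair-count formula

Pure character theory: if `1 + χ₁ - χ₂ = 3·1_S` with `1, z ∉ S`, then
`k² (f - χ₁(z))² = 3 f (f+1) #{(u,v) : u ~ z ~ v, uv ∈ S}`.
(First half of helper91's TN-INV, with an arbitrary set `S` and arbitrary `z`.)
-/

set_option autoImplicit false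

namespace Cfsg.Agent.H13.Tm

open Cfsg Cfsg.Agent.H64.Tm

universe u

/-- **TM-INV**. -/
theorem inv : StInv.{u} := by
  intro G _ _ S χ₁ χ₂ hdec h1' x hx'
  classical
  have : Fintype G := Fintype.ofFinite G
  have hP : ∀ g : G, S.indicator (fun _ => (3 : ℂ)) g = if g ∈ S then 3 else 0 := by
    intro g; simp [Set.indicator]
  have e1 := hdec 1
  have ex := hdec x
  rw [hP, if_neg h1'] at e1
  rw [hP, if_neg hx'] at ex
  obtain ⟨n, hn, hf⟩ := Cfsg.Agent.H4.irr_one_eq_natCast χ₁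
  have hf' : χ₁.1 1 = (n : ℂ) := hf
  obtain ⟨f, hfdef⟩ : ∃ f : ℂ, χ₁.1 1 = f := ⟨_, rfl⟩
  obtain ⟨c, hcdef⟩ : ∃ c : ℂ, χ₁.1 x = c := ⟨_, rfl⟩
  rw [hfdef] at e1 hf'
  rw [hcdef] at ex
  rw [hfdef, hcdef]
  have hf0 : f ≠ 0 := by rw [hf']; exact_mod_cast hn.ne'
  have hf1 : f + 1 ≠ 0 := by rw [hf']; exact_mod_cast (Nat.succ_ne_zero n)
  have hχ21 : χ₂.1 1 = f + 1 := by linear_combination -e1
  have hχ2x : χ₂.1 x = c + 1 := by linear_combination -ex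
  have hS1 := Cfsg.Agent.H82.irr_sum_sum χ₁ x x
  have hS2 := Cfsg.Agent.H82.irr_sum_sum χ₂ x x
  rw [hfdef, hcdef] at hS1
  rw [hχ21, hχ2x] at hS2
  obtain ⟨S₁, hS₁⟩ : ∃ S₁ : ℂ, ∑ a : G, ∑ b : G, χ₁.1 (a * x * a⁻¹ * (b * x * b⁻¹)) = S₁ :=
    ⟨_, rfl⟩
  obtain ⟨S₂, hS₂⟩ : ∃ S₂ : ℂ, ∑ a : G, ∑ b : G, χ₂.1 (a * x * a⁻¹ * (b * x * b⁻¹)) = S₂ :=
    ⟨_, rfl⟩
  rw [hS₁] at hS1
  rw [hS₂] at hS2
  obtain ⟨Gc, hGc⟩ : ∃ Gc : ℂ, (Nat.card G : ℂ) = Gc := ⟨_, rfl⟩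
  rw [hGc] at hS1 hS2
  have hGc0 : Gc ≠ 0 := by
    rw [← hGc]; exact_mod_cast (Nat.card_pos (α := G)).ne'
  have hS1' : S₁ * f = Gc ^ 2 * c ^ 2 := by rw [hS1]; field_simp
  have hS2' : S₂ * (f + 1) = Gc ^ 2 * (c + 1) ^ 2 := by rw [hS2]; field_simp
  have hstar := Cfsg.Agent.H91.Tn.conj_sum2 x (fun y y' => S.indicator (fun _ => (3 : ℂ)) (y * y'))
  have hL1 : ∑ r : G, ∑ s : G, S.indicator (fun _ => (3 : ℂ)) (r * x * r⁻¹ * (s * x * s⁻¹)) =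
      Gc ^ 2 + S₁ - S₂ := by
    have hdec' : ∀ g : G, S.indicator (fun _ => (3 : ℂ)) g = 1 + χ₁.1 g - χ₂.1 g :=
      fun g => (hdec g).symm
    simp only [hdec']
    simp only [Finset.sum_sub_distrib, Finset.sum_add_distrib, Finset.sum_const,
      Finset.card_univ, nsmul_eq_mul, mul_one]
    rw [hS₁, hS₂, ← Nat.card_eq_fintype_card, hGc]; ring
  have hR : ∑ y : G, ∑ y' : G,
      (if IsConj x y ∧ IsConj x y' then S.indicator (fun _ => (3 : ℂ)) (y * y') else 0) =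
      3 * (Nat.card {p : G × G // IsConj x p.1 ∧ IsConj x p.2 ∧ p.1 * p.2 ∈ S} : ℂ) := by
    rw [Cfsg.Agent.H91.Tn.card_sub_eq_sum, Fintype.sum_prod_type, Finset.mul_sum]
    refine Finset.sum_congr rfl fun y _ => ?_
    rw [Finset.mul_sum]
    refine Finset.sum_congr rfl fun y' _ => ?_
    rw [hP]
    by_cases h1 : IsConj x y <;> by_cases h2 : IsConj x y' <;>
      by_cases h3 : y * y' ∈ S <;> simp [h1, h2, h3]
  beta_reduce at hstar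
  rw [hL1, hR, hGc] at hstar
  obtain ⟨NG, hNG⟩ : ∃ NG : ℂ, (Nat.card {p : G × G // IsConj x p.1 ∧ IsConj x p.2 ∧
      p.1 * p.2 ∈ S} : ℂ) = NG := ⟨_, rfl⟩
  obtain ⟨kc, hkc⟩ : ∃ kc : ℂ, (Nat.card {y : G // IsConj x y} : ℂ) = kc := ⟨_, rfl⟩
  rw [hNG, hkc] at hstar
  rw [hkc, hNG]
  have E' : Gc ^ 2 * (kc ^ 2 * (f - c) ^ 2) = Gc ^ 2 * (3 * NG * f * (f + 1)) := by
    linear_combination f * (f + 1) * hstar - kc ^ 2 * (f + 1) * hS1' + kc ^ 2 * f * hS2'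
  have E'' : kc ^ 2 * (f - c) ^ 2 = 3 * NG * f * (f + 1) :=
    mul_left_cancel₀ (pow_ne_zero 2 hGc0) E'
  linear_combination E''

example : Cfsg.Agent.H64.Tm.StInv.{u} := inv

end Cfsg.Agent.H13.Tm

#print axioms Cfsg.Agent.H13.Tm.inv
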